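import Cfsg.Agent.Known.PSL2Deg
import Cfsg.Agent.Known.ZassSylow
import Cfsg.Agent.Char.DegBasic
import Cfsg.Agent.Char.ClassMult
import Cfsg.Agent.Char.BrauerApps
import Cfsg.Agent.PrimeOne.SqOrder
import Cfsg.Agent.Class.PGL2Sub

/-!
# Recognition of `PSL(2, p²)` from character degrees
-/

set_option autoImplicit false

namespace Cfsg.Lib.Recog.DegL2

open Cfsg Cfsg.Lib.Char Cfsg.Lib.Known Cfsg.Lib.Known.GL2

variable {G : Type*} [Group G] [Finite G]

/-- Column orthogonality with the identity: the non-principal characters cannot all vanish at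
`g` or have degree divisible by `D > 1`. -/
theorem no_elt {g : G} (hg : g ≠ 1) {D : ℕ} (hD : D ≠ 1)
    (h : ∀ χ : IrrCharacter G, (χ : G → ℂ) = (fun _ => 1) ∨ (χ : G → ℂ) g = 0 ∨
      D ∣ charDegree (χ : G → ℂ)) : False := by
  classical
  have h0 := ite_eq_one_eq_sum_irr g
  rw [if_neg hg, eq_comm, mul_eq_zero] at h0
  have h1 : ∑ χ : IrrCharacter G, (χ : G → ℂ) 1 * (χ : G → ℂ) g = 0 :=
    h0.resolve_left (inv_ne_zero (by exact_mod_cast (Nat.card_pos (α := G)).ne'))
  let o : IrrCharacter G := ⟨fun _ => 1, isIrrCharacter_one⟩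
  rw [← Finset.add_sum_erase _ _ (Finset.mem_univ o)] at h1
  have hD0 : D ≠ 0 := by
    rintro rfl
    rw [Finset.sum_eq_zero] at h1
    · simp [o] at h1
    · intro χ hχ
      rcases h χ with e | e | e
      · exact absurd (Subtype.ext e) (Finset.ne_of_mem_erase hχ)
      · rw [e, mul_zero]
      · exact absurd (Nat.eq_zero_of_zero_dvd e) (Deg.deg_pos χ.2).ne'
  have hDc : (D : ℂ) ≠ 0 := by exact_mod_cast hD0
  have h2 : IsIntegral ℤ ((∑ χ ∈ Finset.univ.erase o, (χ : G → ℂ) 1 * (χ : G → ℂ) g) / D) := by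
    rw [Finset.sum_div]
    refine IsIntegral.sum _ fun χ hχ => ?_
    rcases h χ with e | e | ⟨c, e⟩
    · exact absurd (Subtype.ext e) (Finset.ne_of_mem_erase hχ)
    · rw [e, mul_zero, zero_div]; exact isIntegral_zero
    · rw [← Deg.cast_deg_irr χ.2, e]
      push_cast
      rw [mul_assoc, mul_div_cancel_left₀ _ hDc]
      exact (Brauer.isIntegral_natCast' c).mul (IsCharacter_isIntegral χ.2.isCharacter g)
  have h3 : (∑ χ ∈ Finset.univ.erase o, (χ : G → ℂ) 1 * (χ : G → ℂ) g) = -((1 : ℕ) : ℂ) := by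
    simp only [o, mul_one] at h1
    push_cast
    linear_combination h1
  rw [h3, neg_div] at h2
  exact hD (Nat.dvd_one.1 (dvd_of_isIntegral_div hD0 (by simpa using h2.neg)))

/-- Equal multiplicities of degrees give a degree preserving bijection. -/
theorem exists_equiv {H : Type*} [Group H] [Finite H]
    (h : ∀ d : ℕ, Nat.card {χ : IrrCharacter G // (χ : G → ℂ) 1 = (d : ℂ)} =
      Nat.card {χ : IrrCharacter H // (χ : H → ℂ) 1 = (d : ℂ)}) :
    ∃ e : IrrCharacter G ≃ IrrCharacter H,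
      ∀ χ, charDegree (e χ : H → ℂ) = charDegree (χ : G → ℂ) := by
  have key : ∀ d : ℕ, Nonempty ({χ : IrrCharacter G // charDegree (χ : G → ℂ) = d} ≃
      {χ : IrrCharacter H // charDegree (χ : H → ℂ) = d}) := by
    intro d
    obtain ⟨e⟩ := Finite.card_eq.1 (h d)
    exact ⟨((Equiv.subtypeEquivRight fun χ => Deg.deg_eq_iff χ.2.isCharacter).trans e).trans
      (Equiv.subtypeEquivRight fun χ => (Deg.deg_eq_iff χ.2.isCharacter).symm)⟩
  exact ⟨Equiv.ofFiberEquiv fun d => (key d).some, fun χ =>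
    Equiv.ofFiberEquiv_map (f := fun χ : IrrCharacter G => charDegree (χ : G → ℂ))
      (g := fun χ : IrrCharacter H => charDegree (χ : H → ℂ)) _ χ⟩

theorem card_eq_of_equiv {H : Type*} [Group H] [Finite H] (e : IrrCharacter G ≃ IrrCharacter H)
    (he : ∀ χ, charDegree (e χ : H → ℂ) = charDegree (χ : G → ℂ)) : Nat.card G = Nat.card H := by
  rw [← Deg.sum_deg_sq G, ← Deg.sum_deg_sq H, ← Equiv.sum_comp e]
  simp only [he]

/-- If no element has order divisible by `p` and another prime, an abelian Sylow `p`-subgroup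
contains the centralisers of its non-identity elements. -/
theorem cent_of_isolated {p : ℕ} [hp : Fact p.Prime] (P : Sylow p G)
    (hab : ∀ x ∈ (P : Subgroup G), ∀ y ∈ (P : Subgroup G), x * y = y * x)
    (h : ∀ g : G, ∀ r : ℕ, r.Prime → r ≠ p → p ∣ orderOf g → ¬ r ∣ orderOf g) :
    ∀ x ∈ (P : Subgroup G), x ≠ 1 → ∀ y : G, y * x = x * y → y ∈ (P : Subgroup G) := by
  intro x hx h1
  have hpg : IsPGroup p (Subgroup.centralizer ({x} : Set G)) := by
    rw [IsPGroup.iff_orderOf]
    rintro ⟨y, hy⟩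
    rw [← Subgroup.orderOf_coe]
    simp only
    have hc : Commute x y := (Subgroup.mem_centralizer_singleton_iff.1 hy).symm
    refine ⟨_, Nat.eq_prime_pow_of_unique_prime_dvd (orderOf_pos y).ne' fun {r} hr hd => ?_⟩
    by_contra hne
    obtain ⟨k, hk⟩ := IsPGroup.iff_orderOf.1 P.isPGroup' ⟨x, hx⟩
    rw [← Subgroup.orderOf_coe] at hk
    simp only at hk
    have hk0 : k ≠ 0 := by
      rintro rfl
      exact h1 (orderOf_eq_one_iff.1 (by simpa using hk))
    have hy' : orderOf (y ^ (orderOf y / r)) = r := orderOf_pow_orderOf_div (orderOf_pos y).ne' hd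
    have hco : (orderOf x).Coprime (orderOf (y ^ (orderOf y / r))) := by
      rw [hk, hy']
      exact Nat.Coprime.pow_left _ ((Nat.coprime_primes hp.out hr).2 (Ne.symm hne))
    have ho := (hc.pow_right (orderOf y / r)).orderOf_mul_eq_mul_orderOf_of_coprime hco
    rw [hk, hy'] at ho
    exact h _ r hr hne (ho ▸ (dvd_pow_self p hk0).mul_right r) (ho ▸ Dvd.intro_left _ rfl)
  intro y hy
  have := P.is_maximal' hpg fun a ha => Subgroup.mem_centralizer_singleton_iff.2 (hab a ha x hx)
  rw [← this]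
  exact Subgroup.mem_centralizer_singleton_iff.2 hy

theorem arith {q n m : ℕ} (hq : 2 ≤ q) (h1 : n ≡ 1 [MOD q]) (h2 : n ≠ 1)
    (h3 : n * m = (q - 1) * (q + 1)) : n = q + 1 := by
  obtain ⟨q, rfl⟩ : ∃ r, q = r + 1 := ⟨q - 1, by omega⟩
  simp only [Nat.add_sub_cancel] at h3
  have hn0 : n ≠ 0 := by rintro rfl; simp at h3; omega
  obtain ⟨a, ha⟩ := (Nat.modEq_iff_dvd' (Nat.pos_of_ne_zero hn0)).1 h1.symm
  have hn : n = (q + 1) * a + 1 := by omega
  have ha0 : a ≠ 0 := by rintro rfl; omega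
  have h4 : q + 1 ∣ m + 1 := by
    have : (q + 1) * (q + 1) = (q + 1) * (a * m) + (m + 1) := by
      rw [hn] at h3; nlinarith
    exact (Nat.dvd_add_right (Dvd.intro _ rfl)).1 (this ▸ Dvd.intro _ rfl)
  have h5 := Nat.le_of_dvd (by omega) h4
  by_contra hne
  have h6 : q + 1 + 1 < n := by
    have : q + 1 ≤ (q + 1) * a := Nat.le_mul_of_pos_right _ (Nat.pos_of_ne_zero ha0)
    omega
  have h7 : q ≤ m := by omega
  nlinarith

theorem card_psl {F : Type*} [Field F] [Fintype F] {p : ℕ} (hp : p.Prime)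
    (hF : Fintype.card F = p ^ 2) :
    (p = 2 ∧ Nat.card (PSL2 F) = 60) ∨
      ∃ k, 0 < k ∧ p ^ 2 = 4 * k + 1 ∧ Nat.card (PSL2 F) = (4 * k + 2) * ((4 * k + 1) * (2 * k)) := by
  have h := Class.gcd_mul_card_PSL2 (F := F)
  rw [Nat.card_eq_fintype_card (α := F), hF] at h
  rcases hp.eq_two_or_odd' with rfl | ⟨a, rfl⟩
  · exact Or.inl ⟨rfl, by simpa using h⟩
  · refine Or.inr ⟨a * a + a, ?_, by ring, ?_⟩
    · have := hp.two_le
      nlinarith
    · have e : (2 * a + 1) ^ 2 = 4 * (a * a + a) + 1 := by ring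
      rw [e, Nat.add_sub_cancel, Nat.gcd_eq_left (Dvd.intro (2 * (a * a + a)) (by ring))] at h
      refine Nat.eq_of_mul_eq_mul_left (by norm_num : 0 < 2) (h.trans ?_)
      ring

/-- A group of the order of `PSL(2, p²)` whose Sylow `p`-subgroup contains the centralisers of
its non-identity elements is `PSL(2, p²)`. -/
theorem psl2_of_cent {F : Type*} [Field F] [Fintype F] {p : ℕ} [hp : Fact p.Prime]
    (hF : Fintype.card F = p ^ 2) (hG : Nat.card G = Nat.card (PSL2 F)) (P : Sylow p G)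
    (hC : ∀ x ∈ (P : Subgroup G), x ≠ 1 → ∀ y : G, y * x = x * y → y ∈ (P : Subgroup G)) :
    Nonempty (G ≃* PSL2 F) := by
  have h2 := hp.out.two_le
  have key : ∀ m c : ℕ, Nat.card G = p ^ 2 * m → m * c = (p ^ 2 - 1) * (p ^ 2 + 1) → p ^ 2 ≤ m →
      Nat.card (P : Subgroup G) = p ^ 2 ∧ Nat.card (Sylow p G) = p ^ 2 + 1 := by
    intro m c hm hc hle
    have hpm : ¬ p ∣ m := by
      intro hd
      have h3 : p ∣ (p ^ 2 - 1) * (p ^ 2 + 1) := hc ▸ hd.mul_right c
      have h4 : p ∣ p ^ 2 := dvd_pow_self p two_ne_zero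
      rcases (Nat.Prime.dvd_mul hp.out).1 h3 with h5 | h5
      · have := (Nat.dvd_sub h4 h5)
        rw [Nat.sub_sub_self (Nat.one_le_pow _ _ hp.out.pos)] at this
        exact hp.out.one_lt.ne' (Nat.dvd_one.1 this)
      · exact hp.out.one_lt.ne' (Nat.dvd_one.1 ((Nat.dvd_add_right h4).1 h5))
    have hP := SC.sylow_card_eq_pow P hm hpm
    refine ⟨hP, ?_⟩
    obtain ⟨b, hb⟩ := SC.card_sylow_dvd hm hpm
    refine arith (m := b * c) (by nlinarith) ?_ ?_ (by rw [← mul_assoc, ← hb, hc])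
    · by_contra hne
      obtain ⟨Q, R, hQR, hle, -⟩ := PrimeOne.exists_inf_of_not_modEq hne
      rw [SC.sylow_card_eq Q P, hP] at hle
      have hne : (Q : Subgroup G) ⊓ R ≠ ⊥ := by
        intro e
        rw [e, Subgroup.card_bot] at hle
        nlinarith
      obtain ⟨⟨x, hx⟩, hx1⟩ := Subgroup.ne_bot_iff_exists_ne_one.1 hne
      exact hQR (sylow_eq_of_centralizer_le hC (fun e => hx1 (Subtype.ext e)) hx.2 hx.1)
    · intro h1
      have : Subsingleton (Sylow p G) := (Nat.card_eq_one_iff_unique.1 h1).1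
      have hN := Sylow.normal_of_subsingleton P
      have hne : (P : Subgroup G) ≠ ⊥ := by
        intro e
        rw [e, Subgroup.card_bot] at hP
        nlinarith
      obtain ⟨⟨x, hx⟩, hx1⟩ := Subgroup.ne_bot_iff_exists_ne_one.1 hne
      have hx1' : x ≠ 1 := fun e => hx1 (Subtype.ext e)
      have h3 := SC.card_isConj_mul_card_centralizer x
      have h4 : Nat.card (Subgroup.centralizer ({x} : Set G)) ≤ p ^ 2 :=
        hP ▸ Subgroup.card_le_of_le fun y hy =>
          hC x hx hx1' y (Subgroup.mem_centralizer_singleton_iff.1 hy)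
      have h5 : Nat.card {g : G // IsConj x g} < p ^ 2 := by
        rw [← hP]
        have hss : {g : G | IsConj x g} ⊂ ((P : Subgroup G) : Set G) := by
          refine ⟨fun g hg => ?_, fun hs => ?_⟩
          · obtain ⟨c, hc⟩ := isConj_iff.1 hg
            exact hc ▸ hN.conj_mem x hx c
          · exact hx1' (isConj_one_left.1 (hs (one_mem _)))
        exact Set.ncard_lt_ncard hss
      rw [hm] at h3
      have h6 := Nat.mul_le_mul_left (Nat.card {g : G // IsConj x g}) h4
      have h7 : 0 < p ^ 2 := by positivity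
      nlinarith
  rcases card_psl hp.out hF with ⟨rfl, h⟩ | ⟨k, hk, e, h⟩
  · obtain ⟨h1, h2⟩ := key 15 1 (by rw [hG, h]; norm_num) (by norm_num) (by norm_num)
    exact psl2_of_sylow_of_even hC (k := 2) (by norm_num) h1 h2 (by rw [hG, h]) hF
  · obtain ⟨h1, h2⟩ := key ((4 * k + 2) * (2 * k)) 2 (by rw [hG, h, e]; ring)
      (by rw [e, Nat.add_sub_cancel]; ring) (by rw [e]; nlinarith)
    exact psl2_of_sylow_of_mod_four hC hk (h1.trans e) (by rw [h2, e]) (hG.trans h) (hF.trans e)

/-- The character degrees of `PSL(2, q)` for `q ≡ 1 (mod 4)` or `q` even. -/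
theorem irr_psl {F : Type*} [Field F] [Fintype F] (h3 : Fintype.card F % 4 ≠ 3)
    {χ : PSL2 F → ℂ} (hχ : IsIrrCharacter _ χ) :
    χ = (fun _ => 1) ∨ charDegree χ = Fintype.card F ∨ charDegree χ = Fintype.card F + 1 ∨
      charDegree χ = Fintype.card F - 1 ∨
      (Fintype.card F % 2 = 1 ∧ charDegree χ = (Fintype.card F + 1) / 2) := by
  have := (slLin F).finite
  have := Fintype.ofFinite (SL2 F)
  have h1 := hχ.comp_of_surjective (piSL F) piSL_surjective
  have h2 : charDegree χ = charDegree fun g => χ (piSL F g) := by simp [charDegree]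
  obtain ⟨s, hs, -⟩ := (slLin F).exists_isEll
  rw [h2]
  rcases irr_cases_SL' hs h1 with h | h | h | h | h | h
  · left
    funext g
    obtain ⟨g, rfl⟩ := piSL_surjective g
    exact congrFun h.2 g
  · exact Or.inr (Or.inl (charDegree_of_eq h.1))
  · exact Or.inr (Or.inr (Or.inl (charDegree_of_eq h.1)))
  · exact Or.inr (Or.inr (Or.inr (Or.inl (charDegree_of_eq h.1))))
  · exact Or.inr (Or.inr (Or.inr (Or.inr ⟨h.2.1, charDegree_of_eq h.1⟩)))
  · exfalso
    obtain ⟨-, hodd, θ, χ', hθ, hp⟩ := h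
    have e1 := hp.apply_T ((slLin F).Z_le_T neg_one_mem_Z_SL)
    have e2 := hp.apply_T ((slLin F).Z_le_T (one_mem _))
    have e3 : piSL F (-1) = 1 := by
      rw [← MonoidHom.mem_ker, ker_piSL]; exact neg_one_mem_Z_SL
    simp only [Pi.neg_apply, e3, map_one] at e1 e2
    rw [Lin2.DS_Z _ hs θ neg_one_mem_Z_SL] at e1
    rw [Lin2.DS_Z _ hs θ (one_mem _)] at e2
    have e4 : θ ⟨1, ((slLin F).isTorus_ell hs).Z_le (one_mem _)⟩ = 1 := map_one θ
    have hq : (1 - (Fintype.card F : ℂ)) ≠ 0 := by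
      rw [sub_ne_zero]
      exact_mod_cast Fintype.one_lt_card.ne
    have e5 : θ ⟨-1, ((slLin F).isTorus_ell hs).Z_le neg_one_mem_Z_SL⟩ = 1 := by
      apply Units.ext
      rw [e4, e1] at e2
      exact mul_left_cancel₀ hq (by linear_combination -2 * e2)
    rw [quad_C_apply_eq_one_iff hs hθ,
      neg_one_pow_eq_one_iff_SL (two_ne_zero_of_odd (Nat.odd_iff.2 hodd))] at e5
    omega

/-- `PSL(2, p²)` is determined by its degrees with multiplicities. -/
theorem psl2_of_degrees {F : Type*} [Field F] [Fintype F] {p : ℕ} (hp : p.Prime)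
    (hF : Fintype.card F = p ^ 2) (e : IrrCharacter G ≃ IrrCharacter (PSL2 F))
    (he : ∀ χ, charDegree (e χ : PSL2 F → ℂ) = charDegree (χ : G → ℂ)) :
    Nonempty (G ≃* PSL2 F) := by
  have : Fact p.Prime := ⟨hp⟩
  have := (slLin F).finite
  have : Finite (PSL2 F) := Finite.of_surjective _ piSL_surjective
  have hG := card_eq_of_equiv e he
  have h2 := hp.two_le
  have h4 : 4 ≤ p ^ 2 := by nlinarith
  have h3 : Fintype.card F % 4 ≠ 3 := by
    rw [hF, Nat.pow_mod]
    have : p % 4 < 4 := Nat.mod_lt _ (by norm_num)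
    interval_cases p % 4 <;> simp
  have cases : ∀ χ : IrrCharacter G, (χ : G → ℂ) = (fun _ => 1) ∨
      charDegree (χ : G → ℂ) = p ^ 2 ∨ charDegree (χ : G → ℂ) = p ^ 2 + 1 ∨
      charDegree (χ : G → ℂ) = p ^ 2 - 1 ∨
      (p ^ 2 % 2 = 1 ∧ charDegree (χ : G → ℂ) = (p ^ 2 + 1) / 2) := by
    intro χ
    rcases irr_psl h3 (e χ).2 with h | h
    · left
      let o : IrrCharacter G := ⟨fun _ => 1, isIrrCharacter_one⟩
      have ho : charDegree (e o : PSL2 F → ℂ) = 1 := (he o).trans Deg.deg_const_one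
      have : e χ = e o := by
        apply Subtype.ext
        rcases irr_psl h3 (e o).2 with h' | h'
        · rw [h, h']
        · rw [ho, hF] at h'
          omega
      rw [e.injective this]
    · rw [he, hF] at h
      exact Or.inr h
  have van : ∀ (χ : IrrCharacter G) (g : G) (r t : ℕ), r.Prime → r ∣ orderOf g →
      Nat.card G = charDegree (χ : G → ℂ) * t → ¬ r ∣ t → (χ : G → ℂ) g = 0 :=
    fun χ g r t hr hg ht hn => Brauer.irr_apply_eq_zero_of_defect_zero χ.2 hr
      (Deg.cast_deg_irr χ.2).symm ht hn hg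
  obtain ⟨P⟩ : Nonempty (Sylow p G) := inferInstance
  have two : ∀ {r a : ℕ}, r.Prime → r ∣ a → r ∣ a + 2 → r = 2 := fun hr h1 h2 =>
    (Nat.prime_dvd_prime_iff_eq hr Nat.prime_two).1 ((Nat.dvd_add_right h1).1 h2)
  have one : ∀ {r a : ℕ}, r.Prime → r ∣ a → ¬ r ∣ a + 1 := fun hr h1 h2 =>
    hr.one_lt.ne' (Nat.dvd_one.1 ((Nat.dvd_add_right h1).1 h2))
  rcases card_psl hp hF with ⟨rfl, h⟩ | ⟨k, hk, e1, h⟩
  · rw [← hG] at h
    refine psl2_of_cent hF hG P (cent_of_isolated P ?_ fun g r hr hne hg hrg => ?_)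
    · have := IsPGroup.isMulCommutative_of_card_eq_prime_sq
        (SC.sylow_card_eq_pow P (k := 2) (m := 15) h (by norm_num))
      intro x hx y hy
      exact congrArg Subtype.val (this.is_comm.comm (⟨x, hx⟩ : (P : Subgroup G)) ⟨y, hy⟩)
    · have g1 : g ≠ 1 := by rintro rfl; simp at hg
      have hr60 : r ∣ 60 := h ▸ hrg.trans (orderOf_dvd_natCard g)
      have hr' : r = 3 ∨ r = 5 := by
        rw [show 60 = 2 ^ 2 * (3 * 5) by norm_num, hr.dvd_mul, hr.dvd_mul] at hr60
        rcases hr60 with h5 | h5 | h5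
        · exact absurd ((Nat.prime_dvd_prime_iff_eq hr hp).1 (hr.dvd_of_dvd_pow h5)) hne
        · exact Or.inl ((Nat.prime_dvd_prime_iff_eq hr Nat.prime_three).1 h5)
        · exact Or.inr ((Nat.prime_dvd_prime_iff_eq hr Nat.prime_five).1 h5)
      rcases hr' with rfl | rfl
      · refine no_elt g1 (D := 5) (by norm_num) fun χ => ?_
        rcases cases χ with h' | h' | h' | h' | h'
        · exact Or.inl h'
        · exact Or.inr (Or.inl (van χ g 2 15 hp hg (by rw [h, h']; norm_num) (by norm_num)))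
        · exact Or.inr (Or.inr (by rw [h']; norm_num))
        · exact Or.inr (Or.inl (van χ g 3 20 hr hrg (by rw [h, h']; norm_num) (by norm_num)))
        · exact absurd h'.1 (by norm_num)
      · refine no_elt g1 (D := 3) (by norm_num) fun χ => ?_
        rcases cases χ with h' | h' | h' | h' | h'
        · exact Or.inl h'
        · exact Or.inr (Or.inl (van χ g 2 15 hp hg (by rw [h, h']; norm_num) (by norm_num)))
        · exact Or.inr (Or.inl (van χ g 5 12 hr hrg (by rw [h, h']; norm_num) (by norm_num)))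
        · exact Or.inr (Or.inr (by rw [h']; norm_num))
        · exact absurd h'.1 (by norm_num)
  · rw [← hG] at h
    have hpq : p ∣ 4 * k + 1 := e1 ▸ dvd_pow_self p two_ne_zero
    have hpm : ¬ p ∣ (4 * k + 2) * (2 * k) := by
      intro hd
      rcases (Nat.Prime.dvd_mul hp).1 hd with h5 | h5
      · exact one hp hpq h5
      · exact one hp (by simpa [← mul_assoc] using h5.mul_left 2) hpq
    refine psl2_of_cent hF hG P (cent_of_isolated P ?_ fun g r hr hne hg hrg => ?_)
    · have := IsPGroup.isMulCommutative_of_card_eq_prime_sq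
        (SC.sylow_card_eq_pow P (k := 2) (by rw [h, e1]; ring) hpm)
      intro x hx y hy
      exact congrArg Subtype.val (this.is_comm.comm (⟨x, hx⟩ : (P : Subgroup G)) ⟨y, hy⟩)
    · have g1 : g ≠ 1 := by rintro rfl; simp at hg; omega
      have hrq : ¬ r ∣ 4 * k + 1 := fun hd =>
        hne ((Nat.prime_dvd_prime_iff_eq hr hp).1 (hr.dvd_of_dvd_pow (e1 ▸ hd)))
      simp only [e1, Nat.add_sub_cancel, show (4 * k + 1 + 1) / 2 = 2 * k + 1 by omega] at cases
      by_cases hrk : r ∣ 2 * k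
      · refine no_elt g1 (D := 2 * k + 1) (by omega) fun χ => ?_
        rcases cases χ with h' | h' | h' | h' | h'
        · exact Or.inl h'
        · exact Or.inr (Or.inl (van χ g p _ hp hg (by rw [h, h']; ring) hpm))
        · exact Or.inr (Or.inr ⟨2, by rw [h']; ring⟩)
        · refine Or.inr (Or.inl (van χ g r ((4 * k + 1) * (2 * k + 1)) hr hrg
            (by rw [h, h']; ring) fun hd => ?_))
          exact ((Nat.Prime.dvd_mul hr).1 hd).elim hrq (one hr hrk)
        · exact Or.inr (Or.inr (by rw [h'.2]))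
      · have hn : ¬ r ∣ (4 * k + 1) * (2 * k) := fun hd =>
          ((Nat.Prime.dvd_mul hr).1 hd).elim hrq hrk
        refine no_elt g1 (D := 4 * k) (by omega) fun χ => ?_
        rcases cases χ with h' | h' | h' | h' | h'
        · exact Or.inl h'
        · exact Or.inr (Or.inl (van χ g p _ hp hg (by rw [h, h']; ring) hpm))
        · exact Or.inr (Or.inl (van χ g r _ hr hrg (by rw [h, h']) hn))
        · exact Or.inr (Or.inr (by rw [h']))
        · refine Or.inr (Or.inl (van χ g r (2 * ((4 * k + 1) * (2 * k))) hr hrg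
            (by rw [h, h'.2]; ring) fun hd => ?_))
          rcases (Nat.Prime.dvd_mul hr).1 hd with h5 | h5
          · exact hrk (h5.mul_right k)
          · exact hn h5

end Cfsg.Lib.Recog.DegL2
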