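import Cfsg.Agent.Recog.HayC
import Cfsg.Agent.Recog.HayD

/-!
Full coordinates for the centraliser of a transvection in `PSp₄(q)`.
-/

set_option autoImplicit false
set_option linter.unusedSectionVars false
set_option linter.unusedVariables false
set_option linter.unusedSimpArgs false

namespace Cfsg.Lib.Hay

open Subgroup Matrix MatrixGroups

variable {F : Type*} [Field F] {G : Type*} [Group G]

/-- The natural action of `SL₂`. -/
def ac (k : SL(2, F)) (v : F × F) : F × F := (k 0 0 * v.1 + k 0 1 * v.2, k 1 0 * v.1 + k 1 1 * v.2)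

@[simp] theorem ac_sl (a b c d : F) (e) (v : F × F) :
    ac (sl a b c d e) v = (a * v.1 + b * v.2, c * v.1 + d * v.2) := rfl

/-- The centraliser `C` is the Heisenberg group extended by `SL₂`. -/
structure Fr (C : Subgroup G) (m : F × F × F → G) (b : F → Fˣ → G) (n : F × F → G)
    (κ : SL(2, F) →* G) : Prop extends Fm C m b where
  n_mul : ∀ v w, n v * n w = m (v.1 * w.2 - v.2 * w.1, 0, 0) * n (v + w)
  κn : ∀ k v, κ k * n v = n (ac k v) * κ k
  nC : ∀ v, n v ∈ C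
  κC : ∀ k, κ k ∈ C
  dec : ∀ g ∈ C, ∃ a v k, g = m (a, 0, 0) * n v * κ k
  inj' : ∀ a v k, m (a, 0, 0) * n v * κ k = 1 → a = 0 ∧ v = 0 ∧ k = 1
  nm : ∀ c, n (c, 0) = m (0, c, 0)
  nb : ∀ c, n (0, c) = b (-c) 1
  κu : ∀ c, κ (uu c) = m (0, 0, c)
  κt : κ (-1) = b 0 (-1)

theorem Fr.map {C : Subgroup G} {m : F × F × F → G} {b : F → Fˣ → G} {n : F × F → G}
    {κ : SL(2, F) →* G} (h : Fr C m b n κ) {G' : Type*} [Group G'] {C' : Subgroup G'}
    (e : C ≃* C') : Fr C' (fun v => e ⟨m v, h.mC v⟩) (fun r l => e ⟨b r l, h.bC r l⟩)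
      (fun v => e ⟨n v, h.nC v⟩)
      (C'.subtype.comp (e.toMonoidHom.comp (κ.codRestrict C h.κC))) := by
  have key : ∀ x y : C, (x : G) = y → (e x : G') = e y := fun x y h => by rw [Subtype.ext h]
  have hκ : ∀ k, (C'.subtype.comp (e.toMonoidHom.comp (κ.codRestrict C h.κC))) k =
      e ⟨κ k, h.κC k⟩ := fun k => rfl
  refine ⟨h.toFm.map e, fun v w => ?_, fun k v => ?_, fun v => (e _).2, fun k => (e _).2,
    fun g hg => ?_, fun a v k e' => h.inj' a v k ?_, fun c => key _ _ (h.nm c),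
    fun c => key _ _ (h.nb c), fun c => key _ _ (h.κu c), key _ _ h.κt⟩
  · rw [← coe_mul, ← map_mul, ← coe_mul, ← map_mul]; exact key _ _ (h.n_mul v w)
  · rw [hκ, ← coe_mul, ← map_mul, ← coe_mul, ← map_mul]; exact key _ _ (h.κn k v)
  · obtain ⟨g, hg⟩ := e.surjective ⟨g, hg⟩
    obtain rfl := congrArg Subtype.val hg
    obtain ⟨a, v, k, e'⟩ := h.dec g g.2
    exact ⟨a, v, k, by rw [hκ, ← coe_mul, ← map_mul, ← coe_mul, ← map_mul]; exact key _ _ e'⟩
  · rw [hκ, ← coe_mul, ← map_mul, ← coe_mul, ← map_mul] at e'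
    exact congrArg Subtype.val (e.map_eq_one_iff.mp (Subtype.ext e'))

/-- Elements of the Heisenberg group inverted by the involution. -/
def n₀ (v : F × F) : symplecticGroup (Fin 2) F :=
  ⟨fromBlocks !![1, -v.2; 0, 1] !![0, v.1; v.1, 0] 0 !![1, 0; v.2, 1],
    SymplecticGroup.fromBlocks_mem_iff.mpr ⟨by simp, by
      ext i j; fin_cases i <;> fin_cases j <;> simp [Matrix.mul_apply, mul_comm], by
      ext i j; fin_cases i <;> fin_cases j <;> simp [Matrix.mul_apply]⟩⟩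

/-- The Levi factor. -/
def κ₀ : SL(2, F) →* symplecticGroup (Fin 2) F :=
  MonoidHom.mk' (fun k => ⟨fromBlocks !![1, 0; 0, k 0 0] !![0, 0; 0, k 0 1] !![0, 0; 0, k 1 0]
    !![1, 0; 0, k 1 1], SymplecticGroup.fromBlocks_mem_iff.mpr ⟨by
      ext i j; fin_cases i <;> fin_cases j <;> simp [Matrix.mul_apply, mul_comm], by
      ext i j; fin_cases i <;> fin_cases j <;> simp [Matrix.mul_apply, mul_comm], by
      have := k.det_coe
      rw [det_fin_two] at this
      ext i j; fin_cases i <;> fin_cases j <;> simp [Matrix.mul_apply]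
      linear_combination this⟩⟩) fun k l => Subtype.ext (by
    simp [fromBlocks_multiply, Matrix.mul_apply, Fin.sum_univ_two])

theorem κ₀_sl (a b c d : F) (e) : (κ₀ (sl a b c d e)).1 =
    fromBlocks !![1, 0; 0, a] !![0, 0; 0, b] !![0, 0; 0, c] !![1, 0; 0, d] := rfl

theorem z₀ : (0 : Matrix (Fin 2) (Fin 2) F) = !![0, 0; 0, 0] := by
  ext i j; fin_cases i <;> fin_cases j <;> rfl

theorem dec₀ {g : symplecticGroup (Fin 2) F} {a : F} (ha : a ≠ 0)
    (e' : g * m₀ (a, 0, 0) = m₀ (a, 0, 0) * g) :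
    ∃ z ∈ center (symplecticGroup (Fin 2) F), ∃ c v k, g = m₀ (c, 0, 0) * n₀ v * κ₀ k * z := by
  obtain ⟨g, hg⟩ := g
  obtain ⟨A, B, C, D, rfl⟩ : ∃ A B C D, g = fromBlocks A B C D :=
    ⟨_, _, _, _, (fromBlocks_toBlocks g).symm⟩
  replace e' := congrArg Subtype.val e'
  simp only [m₀, Submonoid.coe_mul, fromBlocks_multiply, fromBlocks_inj] at e'
  have h1 := congrFun (congrFun e'.2.1 0) 0
  have h2 := congrFun (congrFun e'.2.1 1) 0
  have h3 := congrFun (congrFun e'.2.1 0) 1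
  have h4 := congrFun (congrFun e'.1 0) 0
  have h5 := congrFun (congrFun e'.1 0) 1
  have h6 := congrFun (congrFun e'.2.2.2 1) 0
  obtain ⟨-, k2, k3⟩ := SymplecticGroup.fromBlocks_mem_iff.mp hg
  have h7 := congrFun (congrFun k2 0) 1
  have h00 := congrFun (congrFun k3 0) 0
  have h10 := congrFun (congrFun k3 1) 0
  have h11 := congrFun (congrFun k3 1) 1
  simp [Matrix.mul_apply, vecMul, dotProduct, ha, add_comm (B 0 0), mul_comm a] at h1 h2 h3 h4 h5 h6
  simp [Matrix.mul_apply] at h7 h00 h10 h11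
  clear e' k2 k3
  revert hg
  rw [eta_fin_two A, eta_fin_two B, eta_fin_two C, eta_fin_two D]
  intro hg
  generalize A 0 0 = p, A 0 1 = a₁, A 1 0 = a₂, A 1 1 = a₃, B 0 0 = b₀, B 0 1 = b₁, B 1 0 = b₂,
    B 1 1 = b₃, C 0 0 = c₀, C 0 1 = c₁, C 1 0 = c₂, C 1 1 = c₃, D 0 0 = d₀, D 0 1 = d₁, D 1 0 = d₂,
    D 1 1 = d₃ at *
  subst h1 h2 h3 h4 h5 h6
  have hp : p * p = 1 := by simpa using h00
  have hd : a₃ * d₃ - b₃ * c₃ = 1 := by linear_combination h11
  obtain rfl : a₁ = p * (b₂ * c₃ - a₃ * d₂) := by linear_combination p * h10 - a₁ * hp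
  obtain rfl : b₁ = p * (b₂ * d₃ - b₃ * d₂) := by linear_combination -p * h7 - b₁ * hp
  refine ⟨⟨p • 1, by rcases mul_self_eq_one_iff.mp hp with e | e <;>
      simp [e, SymplecticGroup.neg_mem, one_mem]⟩, (Agent.S0246.mem_center_iff _).mpr
    ((mul_self_eq_one_iff.mp hp).imp (fun e => by simp [e]) fun e => by simp [e]),
    p * b₀, (p * b₂, p * d₂), sl (p * a₃) (p * b₃) (p * c₃) (p * d₃)
      (by linear_combination p * p * hd + hp), Subtype.ext ?_⟩
  rcases mul_self_eq_one_iff.mp hp with rfl | rfl <;>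
  · simp [m₀, n₀, κ₀_sl, fromBlocks_multiply, fromBlocks_neg]
    constructor <;> ring

variable {p : ℕ} (hp : (p : F) = 0) (hp2 : Odd p)
include hp hp2

theorem frP {a : F} (ha : a ≠ 0) : Fr (centralizer {((m₀ (a, 0, 0) : symplecticGroup (Fin 2) F) :
    PSp 2 F)}) (fun v => ((m₀ v : symplecticGroup (Fin 2) F) : PSp 2 F))
    (fun r l => ((b₀ r l : symplecticGroup (Fin 2) F) : PSp 2 F))
    (fun v => ((n₀ v : symplecticGroup (Fin 2) F) : PSp 2 F)) ((QuotientGroup.mk' _).comp κ₀) := by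
  have hm := fun v => fm₀.pow_U hp (fm₀.mU v)
  have key : ∀ {x y z w : symplecticGroup (Fin 2) F}, (x * y).1 = (z * w).1 →
      (x : PSp 2 F) * y = z * w := fun e => congrArg QuotientGroup.mk (Subtype.ext e)
  refine ⟨fmP hp hp2 ha, fun v w => key ?_, fun k v => key ?_,
    fun v => mem_centralizer_singleton_iff.mpr (key ?_),
    fun k => mem_centralizer_singleton_iff.mpr (key ?_), fun g hg => ?_, fun c v k e => ?_,
    fun c => congrArg _ (Subtype.ext ?_), fun c => congrArg _ (Subtype.ext ?_),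
    fun c => congrArg QuotientGroup.mk (Subtype.ext ?_),
    congrArg QuotientGroup.mk (Subtype.ext ?_)⟩
  · simp [m₀, n₀, fromBlocks_multiply, z₀, one_fin_two]
    ring_nf
    simp
  · obtain ⟨a, b, c, d, e, rfl⟩ := exists_sl k
    simp [n₀, κ₀_sl, fromBlocks_multiply, z₀]
    constructor
    · linear_combination v.2 * e
    · linear_combination -v.1 * e
  · simp [m₀, n₀, fromBlocks_multiply, z₀, one_fin_two]
  · obtain ⟨a, b, c, d, e, rfl⟩ := exists_sl k
    simp [m₀, κ₀_sl, fromBlocks_multiply, z₀, one_fin_two]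
  · obtain ⟨g, rfl⟩ := QuotientGroup.mk_surjective g
    obtain ⟨z, hz, c, v, k, rfl⟩ := dec₀ ha
      (comm_of_mk hp2.pow (hm _) (hm _) (mem_centralizer_singleton_iff.mp hg))
    exact ⟨c, v, k, by simp [(QuotientGroup.eq_one_iff z).mpr hz]⟩
  · obtain ⟨a, b, c', d, hd, rfl⟩ := exists_sl k
    obtain ⟨v, w⟩ := v
    have := (Agent.S0246.mem_center_iff _).mp
      ((QuotientGroup.eq_one_iff (m₀ (c, 0, 0) * n₀ (v, w) * κ₀ (sl a b c' d hd))).mp e)
    rw [← fromBlocks_one, fromBlocks_neg, one_fin_two] at this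
    simp [m₀, n₀, κ₀_sl, fromBlocks_multiply, z₀, one_fin_two] at this
    rcases this with h | h
    · simp only [sl_one, sl_inj, Prod.ext_iff, Prod.fst_zero, Prod.snd_zero]
      tauto
    · exact (two_ne hp hp2 (by linear_combination h.1.1.1)).elim
  · simp [m₀, n₀, one_fin_two]
  · simp [b₀, n₀, z₀]
  · simp [m₀, uu, κ₀_sl, one_fin_two, z₀]
  · simp [b₀, sl_one, sl_neg, κ₀_sl, z₀]

theorem exists_frP [Finite F] [Fact p.Prime] {x : PSp 2 F} (hx : x ≠ 1) (P : Sylow p (PSp 2 F))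
    (hxc : ∀ y ∈ (P : Subgroup (PSp 2 F)), y * x = x * y) :
    ∃ (m : F × F × F → PSp 2 F) (b : F → Fˣ → PSp 2 F) (n : F × F → PSp 2 F)
      (κ : SL(2, F) →* PSp 2 F), Fr (centralizer {x}) m b n κ := by
  have h := fmP₀ hp hp2
  have hm := fun v => fm₀.pow_U hp (fm₀.mU v)
  obtain ⟨Q, hQ⟩ := (h.isPGroup_U hp).exists_le_sylow
  obtain ⟨g, rfl⟩ := MulAction.exists_smul_eq (PSp 2 F) Q P
  obtain ⟨y, hy⟩ := QuotientGroup.mk_surjective (g⁻¹ * x * g)
  have h1 : ∀ u ∈ h.U, y * u = u * y := fun u hu => by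
    have := hxc (g * u * g⁻¹) ⟨u, hQ hu, rfl⟩
    rw [hy]
    calc g⁻¹ * x * g * u = g⁻¹ * (x * (g * u * g⁻¹)) * g := by group
      _ = u * (g⁻¹ * x * g) := by rw [← this]; group
  obtain ⟨z, hz, ⟨a, b, c⟩, r, l, e⟩ := norm₀ one_ne_zero (comm_of_mk hp2.pow (hm _) (hm _)
    (h1 _ (h.mU _))) (comm_of_mk hp2.pow (hm _) (hm _) (h1 _ (h.mU _)))
  replace e := congrArg (QuotientGroup.mk (s := center _)) e
  rw [QuotientGroup.mk_mul, QuotientGroup.mk_mul, (QuotientGroup.eq_one_iff z).mpr hz, mul_one] at e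
  have h2 := two_ne hp hp2
  obtain ⟨rfl, rfl⟩ := h.eq_one h2 (e ▸ h1 _ (h.mU _))
  rw [h.b_one, mul_one] at e
  have h3 := h.inj (mul_right_cancel ((e ▸ h1 _ (h.bU 1)).trans (h.bm 1 1 _)))
  simp only [B_apply, Prod.mk.injEq, Units.val_one] at h3
  obtain rfl : c = 0 := by linear_combination -h3.2.1
  obtain rfl : b = 0 := mul_left_cancel₀ h2 (by linear_combination -h3.1)
  have ha : a ≠ 0 := by
    rintro rfl
    exact hx (by simpa [mul_assoc, inv_mul_eq_one] using hy.symm.trans (e.trans h.m_zero))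
  refine ⟨_, _, _, _, (frP hp hp2 ha).map (((MulAut.conj g).subgroupMap _).trans
    (MulEquiv.subgroupCongr ?_))⟩
  rw [← e, hy]
  exact (Block.map_conj_centralizer_singleton _ g).trans (by simp [mul_assoc])

end Cfsg.Lib.Hay
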