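import Cfsg.Agent.QT.Basic
import Cfsg.Agent.Gold.PiHom
import Cfsg.Agent.Char.Burnside
import Cfsg.Agent.Trans.NormalComplement
import Cfsg.Agent.CITCor.SelfCent

/-!
# Groups in which the normalizers of `{p, q}`-subgroups are maximal, I: generalities
-/

set_option autoImplicit false

namespace Cfsg.Lib.MaxN

open Subgroup Cfsg.Lib.Solv

/-- At most two primes divide the order. -/
def Two {X : Type*} [Group X] (H : Subgroup X) : Prop :=
  ∃ p q : ℕ, p.Prime ∧ q.Prime ∧ ∀ r : ℕ, r.Prime → r ∣ Nat.card H → r = p ∨ r = q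

/-- The normalizer of every non-trivial `{p, q}`-subgroup is maximal. -/
def NM (X : Type*) [Group X] : Prop :=
  ∀ H : Subgroup X, H ≠ ⊥ → Two H → IsCoatom (normalizer (H : Set X))

/-- A dihedral configuration. -/
def DP (X : Type*) [Group X] : Prop :=
  ∀ y w τ : X, orderOf y = 3 → w * w = 1 → w * y * w⁻¹ = y⁻¹ → w * τ * w⁻¹ = τ⁻¹ →
    τ * y = y * τ → τ ^ 2 ∈ zpowers y

/-- The normalizer of a centralizer. -/
def CP (X : Type*) [Group X] : Prop :=
  ∀ (p : ℕ) (u g : X), p.Prime → orderOf u = p → IsPGroup p (centralizer ({u} : Set X)) →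
    (∀ c : X, c * u = u * c → g * c * g⁻¹ * u = u * (g * c * g⁻¹)) → g * u * g⁻¹ ∈ zpowers u

variable {X : Type*} [Group X] {Y : Type*} [Group Y]

theorem two_of_isPiNum {H : Subgroup X} {p q : ℕ} (hp : p.Prime) (hq : q.Prime)
    (h : IsPiNum {p, q} (Nat.card H)) : Two H :=
  ⟨p, q, hp, hq, fun r hr hd => by simpa using h r hr hd⟩

theorem Two.exists_isPiNum {H : Subgroup X} (h : Two H) :
    ∃ p q : ℕ, p.Prime ∧ q.Prime ∧ IsPiNum {p, q} (Nat.card H) := by
  obtain ⟨p, q, hp, hq, h⟩ := h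
  exact ⟨p, q, hp, hq, fun r hr hd => by simpa using h r hr hd⟩

theorem two_of_isPGroup [Finite X] {H : Subgroup X} {p : ℕ} (hp : p.Prime) (h : IsPGroup p H) :
    Two H := by
  have := Fact.mk hp
  exact two_of_isPiNum hp hp (isPiNum_card_of_isPGroup (by simp) h)

theorem two_sup [Finite X] {P Q : Subgroup X} {p q : ℕ} (hp : p.Prime) (hq : q.Prime)
    (hP : IsPGroup p P) (hQ : IsPGroup q Q) (h : Q ≤ normalizer (P : Set X)) : Two (P ⊔ Q) := by
  have := Fact.mk hp
  have := Fact.mk hq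
  exact two_of_isPiNum hp hq ((isPiNum_card_of_isPGroup (by simp) hP).card_sup
    (isPiNum_card_of_isPGroup (by simp) hQ) h)

theorem Two.isSolvable [Finite X] {H : Subgroup X} (h : Two H) : Group.IsSolvable H := by
  obtain ⟨p, q, hp, hq, h⟩ := h
  exact Char.isSolvable_of_prime_dvd_card hp hq H h

theorem Two.map {H : Subgroup X} (h : Two H) (f : X →* Y) : Two (H.map f) := by
  obtain ⟨p, q, hp, hq, h⟩ := h.exists_isPiNum
  exact two_of_isPiNum hp hq (h.card_map f)

theorem mem_of_coprime {H : Subgroup X} {g : X} {a b : ℕ} (h : a.Coprime b) (ha : g ^ a ∈ H)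
    (hb : g ^ b ∈ H) : g ∈ H := by
  have h1 : g = (g ^ a) ^ Nat.gcdA a b * (g ^ b) ^ Nat.gcdB a b := by
    rw [← zpow_natCast, ← zpow_natCast, ← zpow_mul, ← zpow_mul, ← zpow_add, ← Nat.gcd_eq_gcd_ab,
      h.gcd_eq_one]
    simp
  rw [h1]
  exact H.mul_mem (H.zpow_mem ha _) (H.zpow_mem hb _)

theorem mem_of_mem_sup [Finite X] {P Q : Subgroup X} (h : Q ≤ normalizer (P : Set X)) {y : X}
    (hy : y ∈ P ⊔ Q) (hc : (orderOf y).Coprime (Nat.card Q)) : y ∈ P := by
  have hn : (P.subgroupOf (P ⊔ Q)).Normal :=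
    (normal_subgroupOf_iff_le_normalizer le_sup_left).2 (sup_le le_normalizer h)
  have h1 : P.relIndex (P ⊔ Q) ∣ Nat.card Q := by
    have h2 := card_sup_dvd_of_le_normalizer h
    have h3 : P.relIndex (P ⊔ Q) * Nat.card P = Nat.card (P ⊔ Q : Subgroup X) := by
      have := (P.subgroupOf (P ⊔ Q)).index_mul_card
      rwa [Nat.card_congr (subgroupOfEquivOfLe (le_sup_left : P ≤ P ⊔ Q)).toEquiv] at this
    rw [← h3, mul_comm] at h2
    exact Nat.dvd_of_mul_dvd_mul_left Nat.card_pos h2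
  obtain ⟨k, hk⟩ := h1
  refine mem_of_coprime hc (by rw [pow_orderOf_eq_one]; exact P.one_mem) ?_
  rw [hk, pow_mul]
  exact P.pow_mem ((P.subgroupOf (P ⊔ Q)).pow_index_mem ⟨y, hy⟩) k

theorem orderOf_conj' (g x : X) : orderOf (g * x * g⁻¹) = orderOf x :=
  (MulAut.conj g).orderOf_eq x

theorem norm_sup_le [Finite X] {P Q : Subgroup X} (h : Q ≤ normalizer (P : Set X))
    (hc : (Nat.card P).Coprime (Nat.card Q)) :
    normalizer ((P ⊔ Q : Subgroup X) : Set X) ≤ normalizer (P : Set X) := fun g hg =>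
  mem_normalizer_fintype fun x hx => mem_of_mem_sup h
    ((mem_normalizer_iff.1 hg x).1 (mem_sup_left hx))
    (by rw [orderOf_conj']; exact hc.coprime_dvd_left (orderOf_dvd_natCard (⟨x, hx⟩ : P) |> fun h0 => by
      rwa [orderOf_mk] at h0))

theorem mem_norm_zpowers [Finite X] {g u : X} (h : g * u * g⁻¹ ∈ zpowers u) :
    g ∈ normalizer ((zpowers u : Subgroup X) : Set X) :=
  mem_normalizer_fintype fun x hx => by
    obtain ⟨k, rfl⟩ := mem_zpowers_iff.1 hx
    rw [← conj_zpow]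
    exact zpow_mem h k

theorem isPGroup_zpowers' {u : X} {p k : ℕ} (h : u ^ p ^ k = 1) : IsPGroup p (zpowers u) := by
  rintro ⟨x, hx⟩
  obtain ⟨j, rfl⟩ := mem_zpowers_iff.1 hx
  refine ⟨k, Subtype.ext ?_⟩
  simp only [SubgroupClass.coe_pow, OneMemClass.coe_one]
  rw [← zpow_natCast, ← zpow_mul, mul_comm, zpow_mul, zpow_natCast, h, one_zpow]

theorem isPGroup_of_orderOf {u : X} {p : ℕ} (h : orderOf u = p) : IsPGroup p (zpowers u) :=
  isPGroup_zpowers' (k := 1) (by rw [pow_one, ← h, pow_orderOf_eq_one])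

theorem zpowers_ne_bot' {u : X} {p : ℕ} (hp : p.Prime) (h : orderOf u = p) : zpowers u ≠ ⊥ := by
  rw [Ne, zpowers_eq_bot]
  rintro rfl
  rw [orderOf_one] at h
  exact hp.one_lt.ne h

theorem coprime_of_ne [Finite X] {P Q : Subgroup X} {p q : ℕ} (hp : p.Prime) (hq : q.Prime)
    (hpq : p ≠ q) (hP : IsPGroup p P) (hQ : IsPGroup q Q) :
    (Nat.card P).Coprime (Nat.card Q) := by
  have := Fact.mk hp
  have := Fact.mk hq
  obtain ⟨a, ha⟩ := IsPGroup.iff_card.1 hP
  obtain ⟨b, hb⟩ := IsPGroup.iff_card.1 hQ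
  rw [ha, hb]
  exact Nat.coprime_pow_primes _ _ hp hq hpq

namespace NM

theorem eq_of_le (h : NM X) {A B : Subgroup X} (hA : A ≠ ⊥) (hA' : Two A) (hB : B ≠ ⊥)
    (hB' : Two B) (hle : normalizer (A : Set X) ≤ normalizer (B : Set X)) :
    normalizer (A : Set X) = normalizer (B : Set X) :=
  ((h A hA hA').le_iff.1 hle).resolve_left (h B hB hB').1 |>.symm

theorem of_equiv (h : NM X) (e : X ≃* Y) : NM Y := fun H hH h2 => by
  have h1 := h (H.map e.symm.toMonoidHom) (fun h0 => hH (by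
    rwa [map_eq_bot_iff_of_injective _ e.symm.injective] at h0)) (h2.map _)
  rw [← map_equiv_normalizer_eq] at h1
  exact (OrderIso.isCoatom_iff e.symm.mapSubgroup _).1 h1

theorem norm_le_sup [Finite X] (h : NM X) {P Q : Subgroup X} {p q : ℕ} (hp : p.Prime)
    (hq : q.Prime) (hpq : p ≠ q) (hP : IsPGroup p P) (hQ : IsPGroup q Q) (h0 : P ≠ ⊥)
    (hn : Q ≤ normalizer (P : Set X)) :
    normalizer ((P ⊔ Q : Subgroup X) : Set X) = normalizer (P : Set X) :=
  h.eq_of_le (fun h1 => h0 (le_bot_iff.1 (h1 ▸ le_sup_left))) (two_sup hp hq hP hQ hn) h0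
    (two_of_isPGroup hp hP) (norm_sup_le hn (coprime_of_ne hp hq hpq hP hQ))

theorem dp [Finite X] (h : NM X) : DP X := fun y w τ hy hw h1 h2 h3 => by
  have hw2 : IsPGroup 2 (zpowers w) := isPGroup_zpowers' (k := 1) (by rw [pow_one, sq, hw])
  have hn : zpowers w ≤ normalizer ((zpowers y : Subgroup X) : Set X) :=
    zpowers_le_of_mem (mem_norm_zpowers (by rw [h1]; exact inv_mem (mem_zpowers y)))
  have h4 := h.norm_le_sup Nat.prime_three Nat.prime_two (by norm_num) (isPGroup_of_orderOf hy) hw2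
    (zpowers_ne_bot' Nat.prime_three hy) hn
  have h5 : τ ∈ normalizer ((zpowers y ⊔ zpowers w : Subgroup X) : Set X) := by
    rw [h4]
    exact mem_norm_zpowers (by rw [h3, mul_inv_cancel_right]; exact mem_zpowers y)
  have h6 := (mem_normalizer_iff.1 h5 w).1 (mem_sup_right (mem_zpowers w))
  have h7 : τ * w * τ⁻¹ ∈ closure ({w, y} : Set X) := by
    refine (show zpowers y ⊔ zpowers w ≤ closure ({w, y} : Set X) from sup_le ?_ ?_) h6 <;>
      exact zpowers_le_of_mem (subset_closure (by simp))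
  have hwi : w⁻¹ = w := inv_eq_of_mul_eq_one_right hw
  have h8 : τ * w * τ⁻¹ = w * (τ ^ 2)⁻¹ := by
    have : τ * w = w * τ⁻¹ := by
      rw [← h2, hwi, ← mul_assoc, ← mul_assoc, hw, one_mul]
    rw [this, sq, mul_inv_rev, mul_assoc]
  obtain ⟨k, hk | hk⟩ := CITCor.mem_closure_of_inverts hw h1 h7
  · exfalso
    have h9 : w = y ^ k * τ ^ 2 := by rw [← hk, h8, inv_mul_cancel_right]
    have h10 : w * y = y * w := by
      rw [h9]
      exact ((((Commute.refl y).zpow_left k).mul_left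
        ((show Commute τ y from h3).pow_left 2)).eq)
    rw [h10, mul_inv_cancel_right] at h1
    have : orderOf y ∣ 2 := orderOf_dvd_of_pow_eq_one (by
      rw [sq]; nth_rw 2 [h1]; rw [mul_inv_cancel])
    rw [hy] at this
    omega
  · rw [h8, mul_right_inj] at hk
    rw [← inv_mem_iff, hk]
    exact zpow_mem (mem_zpowers y) k

theorem cp [Finite X] (h : NM X) (L : Subgroup X) [hL : L.Normal] : CP L :=
  fun p u g hp hu hC hg => by
  set U : Subgroup X := (centralizer ({u} : Set L)).map L.subtype with hU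
  have hmem : ∀ x : X, x ∈ U ↔ x ∈ L ∧ x * u = u * x := fun x => by
    constructor
    · rintro ⟨c, hc, rfl⟩
      exact ⟨c.2, congrArg Subtype.val (mem_centralizer_singleton_iff.1 hc)⟩
    · rintro ⟨h1, h2⟩
      exact ⟨⟨x, h1⟩, mem_centralizer_singleton_iff.2 (Subtype.ext h2), rfl⟩
  have hu' : orderOf (u : X) = p := by rw [orderOf_coe, hu]
  have hne := zpowers_ne_bot' hp hu'
  have hle : normalizer ((zpowers (u : X) : Subgroup X) : Set X) ≤ normalizer (U : Set X) := by
    intro n hn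
    refine mem_normalizer_fintype fun x hx => ?_
    obtain ⟨h1, h2⟩ := (hmem x).1 hx
    refine (hmem _).2 ⟨hL.conj_mem x h1 n, ?_⟩
    obtain ⟨k, hk⟩ := mem_zpowers_iff.1
      ((mem_normalizer_iff.1 (inv_mem hn) u).1 (mem_zpowers (u : X)))
    have h3 : (u : X) = n * u ^ k * n⁻¹ := by rw [hk]; group
    have h4 : x * u ^ k = u ^ k * x := ((show Commute x (u : X) from h2).zpow_right k).eq
    conv_lhs => rw [h3]
    conv_rhs => rw [h3]
    rw [conj_mul, conj_mul, h4]
  have heq := h.eq_of_le hne (two_of_isPGroup hp (isPGroup_of_orderOf hu')) (fun h0 => hne (by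
    rw [zpowers_eq_bot]
    have : (u : X) ∈ U := (hmem _).2 ⟨u.2, rfl⟩
    rwa [show U = ⊥ from h0, mem_bot] at this)) (two_of_isPGroup hp (hC.map _)) hle
  have hgU : (g : X) ∈ normalizer (U : Set X) := mem_normalizer_fintype fun x hx => by
    obtain ⟨h1, h2⟩ := (hmem x).1 hx
    exact (hmem _).2 ⟨hL.conj_mem x h1 g, congrArg Subtype.val (hg ⟨x, h1⟩ (Subtype.ext h2))⟩
  rw [← heq] at hgU
  obtain ⟨k, hk⟩ := mem_zpowers_iff.1 ((mem_normalizer_iff.1 hgU u).1 (mem_zpowers (u : X)))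
  exact mem_zpowers_iff.2 ⟨k, Subtype.ext (by simpa using hk)⟩

/-- The centralizer of an involution has a normal `2`-complement. -/
theorem hasNormalPComplement [Finite X] (h : NM X) {t : X} (ht : orderOf t = 2) :
    HasNormalPComplement 2 (centralizer ({t} : Set X)) := by
  have := Fact.mk Nat.prime_two
  set C := centralizer ({t} : Set X) with hC
  refine Trans.hasNormalPComplement_of_normal (pPrimeCore 2 C) (coprime_card_pPrimeCore 2 C) ?_
  rw [isPGroup_iff_isPiNum]
  intro r hr hd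
  by_contra hr2
  have hr2' : 2 ≠ r := fun h0 => hr2 (by simp [h0])
  have := Fact.mk hr
  obtain ⟨Q⟩ : Nonempty (Sylow r C) := inferInstance
  set Q' : Subgroup X := (Q : Subgroup C).map C.subtype with hQ'
  have hQp : IsPGroup r Q' := Q.isPGroup'.map _
  have hQC : Q' ≤ C := map_subtype_le _
  have hn : Q' ≤ normalizer ((zpowers t : Subgroup X) : Set X) := fun x hx =>
    mem_norm_zpowers (by
      rw [mem_centralizer_singleton_iff.1 (hQC hx), mul_inv_cancel_right]; exact mem_zpowers t)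
  have hn' : zpowers t ≤ normalizer (Q' : Set X) := zpowers_le_of_mem
    (mem_normalizer_fintype fun x hx => by
      rw [← mem_centralizer_singleton_iff.1 (hQC hx), mul_inv_cancel_right]; exact hx)
  have h1 := h.norm_le_sup Nat.prime_two hr hr2' (isPGroup_of_orderOf ht) hQp
    (zpowers_ne_bot' Nat.prime_two ht) hn
  have h2 := norm_sup_le hn' (coprime_of_ne hr Nat.prime_two hr2'.symm hQp (isPGroup_of_orderOf ht))
  rw [sup_comm, h1] at h2
  have h3 : (Q : Subgroup C).Normal := ⟨fun x hx g => by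
    have h4 : (g : X) ∈ normalizer (Q' : Set X) := h2 (mem_norm_zpowers (by
      rw [mem_centralizer_singleton_iff.1 g.2, mul_inv_cancel_right]; exact mem_zpowers t))
    obtain ⟨y, hy, hy'⟩ := (mem_normalizer_iff.1 h4 x).1 ⟨x, hx, rfl⟩
    obtain rfl : y = g * x * g⁻¹ := Subtype.ext hy'
    exact hy⟩
  have h5 : (Q : Subgroup C) ≤ pPrimeCore 2 C :=
    le_pPrimeCore h3 (coprime_card_of_isPGroup Q.isPGroup' ((Nat.coprime_primes Nat.prime_two hr).2 hr2'))
  exact Q.not_dvd_index (hd.trans (index_dvd_of_le h5))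

end NM

theorem DP.of_injective (h : DP X) (f : Y →* X) (hf : Function.Injective f) : DP Y :=
  fun y w τ hy hw h1 h2 h3 => by
  obtain ⟨k, hk⟩ := mem_zpowers_iff.1 (h (f y) (f w) (f τ) (by rw [orderOf_injective f hf, hy])
    (by rw [← map_mul, hw, map_one]) (by rw [← map_inv, ← map_mul, ← map_mul, h1, map_inv])
    (by rw [← map_inv, ← map_mul, ← map_mul, h2, map_inv]) (by rw [← map_mul, h3, map_mul]))
  exact mem_zpowers_iff.2 ⟨k, hf (by rw [map_zpow, hk, map_pow])⟩

theorem CP.of_equiv (h : CP X) (e : Y ≃* X) : CP Y := fun p u g hp hu hC hg => by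
  obtain ⟨k, hk⟩ := mem_zpowers_iff.1 (h p (e u) (e g) hp (by rw [e.orderOf_eq, hu]) (by
    rintro ⟨c, hc⟩
    obtain ⟨c, rfl⟩ := e.surjective c
    obtain ⟨j, hj⟩ := hC ⟨c, mem_centralizer_singleton_iff.2 (e.injective (by
      rw [map_mul, map_mul]; exact mem_centralizer_singleton_iff.1 hc))⟩
    refine ⟨j, Subtype.ext ?_⟩
    have := congrArg e (congrArg Subtype.val hj)
    simpa using this) (fun c hc => by
      obtain ⟨c, rfl⟩ := e.surjective c
      have := congrArg e (hg c (e.injective (by rw [map_mul, map_mul]; exact hc)))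
      simpa using this))
  exact mem_zpowers_iff.2 ⟨k, e.injective (by rw [map_zpow, hk]; simp)⟩

/-- The hypothesis of the theorem. -/
def Hyp (G : Type*) [Group G] : Prop :=
  ∀ H : Subgroup G, ¬ H.IsSubnormal → Two H → IsCoatom (normalizer (H : Set G))

variable {G : Type*} [Group G] [Finite G]

open QT in
theorem Hyp.normalizer_eq (h : Hyp G) {H : Subgroup G} (h2 : Two H) (hH : ¬ H ≤ rad G) :
    normalizer (H : Set G) = (normalizer ((H.map (bar G) : Subgroup _) : Set _)).comap (bar G) := by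
  have h1 := h H (fun hs => hH (le_rad_of_isSubnormal hs h2.isSolvable)) h2
  refine (((h1.le_iff.1 (map_le_iff_le_comap.1 (le_normalizer_map _))).resolve_left
    fun h3 => hH ?_)).symm
  have h4 : (H.map (bar G)).Normal := by
    rw [← normalizer_eq_top_iff, eq_top_iff]
    intro x _
    obtain ⟨g, rfl⟩ := bar_surj x
    exact (h3 ▸ mem_top g : g ∈ comap (bar G) _)
  rw [← ker_bar, ← Subgroup.map_eq_bot_iff]
  exact eq_bot_bar h4.isSubnormal (h2.map _).isSolvable

open QT in
theorem Hyp.nm (h : Hyp G) : NM (G ⧸ rad G) := fun H hH h2 => by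
  obtain ⟨p, q, hp, hq, h3⟩ := h2.exists_isPiNum
  obtain ⟨L, rfl, hL⟩ := Gold.exists_lift_isPiNum (bar G) bar_surj h3
  have h4 := two_of_isPiNum hp hq hL
  have h5 : ¬ L ≤ rad G := fun h0 => hH (by rwa [Subgroup.map_eq_bot_iff, ker_bar])
  have h6 := h L (fun hs => h5 (le_rad_of_isSubnormal hs h4.isSolvable)) h4
  rw [h.normalizer_eq h4 h5] at h6
  refine ⟨fun h0 => h6.1 (by rw [h0, comap_top]), fun M hM => ?_⟩
  have := h6.2 (M.comap (bar G)) (lt_of_le_of_ne (comap_mono hM.le) fun h0 =>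
    hM.ne (comap_injective bar_surj h0))
  exact comap_injective bar_surj (this.trans (comap_top _).symm)

end Cfsg.Lib.MaxN
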