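import Cfsg.Agent.Recog.MaxNA
import Cfsg.Agent.Chev.SuzukiFpf
import Cfsg.Agent.Class.PSL2MaxList
import Cfsg.Agent.GW.L2Model

/-!
# Groups in which the normalizers of `{p, q}`-subgroups are maximal, II: the simple groups
-/

set_option autoImplicit false

namespace Cfsg.Lib.MaxN

open Subgroup Cfsg.Lib.Solv Cfsg.Lib.Class Matrix P1
open scoped MatrixGroups

theorem eq_of_mem_zpowers_three {X : Type*} [Group X] {y x : X} (hy : y ^ 3 = 1)
    (h : x ∈ zpowers y) : x = 1 ∨ x = y ∨ x = y * y := by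
  obtain ⟨k, rfl⟩ := mem_zpowers_iff.1 h
  have h3 : y ^ (3 : ℤ) = 1 := by exact_mod_cast hy
  rw [← Int.mul_ediv_add_emod k 3, _root_.zpow_add, _root_.zpow_mul, h3, _root_.one_zpow,
    one_mul]
  have : k % 3 = 0 ∨ k % 3 = 1 ∨ k % 3 = 2 := by omega
  rcases this with h | h | h <;> rw [h]
  · simp
  · simp
  · right; right; exact _root_.zpow_two y

theorem not_dp_a7 : ¬ DP (alternatingGroup (Fin 7)) := fun h => by
  have := Fact.mk Nat.prime_three
  let y : alternatingGroup (Fin 7) := ⟨Equiv.swap 0 1 * Equiv.swap 1 2,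
    Equiv.Perm.mem_alternatingGroup.2 (by decide)⟩
  let τ : alternatingGroup (Fin 7) := ⟨Equiv.swap 3 4 * Equiv.swap 4 5,
    Equiv.Perm.mem_alternatingGroup.2 (by decide)⟩
  let w : alternatingGroup (Fin 7) := ⟨Equiv.swap 0 1 * Equiv.swap 3 4,
    Equiv.Perm.mem_alternatingGroup.2 (by decide)⟩
  have hy : y ^ 3 = 1 := Subtype.ext (by decide)
  have h1 := h y w τ (orderOf_eq_prime hy (fun h0 => absurd (congrArg Subtype.val h0) (by decide)))
    (Subtype.ext (by decide)) (Subtype.ext (by decide)) (Subtype.ext (by decide))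
    (Subtype.ext (by decide))
  rcases eq_of_mem_zpowers_three hy h1 with h2 | h2 | h2 <;>
    exact absurd (congrArg Subtype.val h2) (by decide)

theorem exists_omega {F : Type*} [Field F] [Fintype F] (hF : Fintype.card F = 4) :
    ∃ ω : F, ω ^ 2 + ω + 1 = 0 := by
  classical
  obtain ⟨a, ha0, ha1⟩ : ∃ a : F, a ≠ 0 ∧ a ≠ 1 := by
    by_contra hc
    push Not at hc
    have : (Finset.univ : Finset F) ⊆ {0, 1} := fun x _ => by
      by_cases h : x = 0
      · simp [h]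
      · simp [hc x h]
    have h1 := Finset.card_le_card this
    have h2 : ({0, 1} : Finset F).card ≤ 2 := Finset.card_le_two
    rw [Finset.card_univ] at h1
    omega
  have h3 := FiniteField.pow_card_sub_one_eq_one a ha0
  rw [hF] at h3
  refine ⟨a, ?_⟩
  have : (a - 1) * (a ^ 2 + a + 1) = 0 := by linear_combination h3
  exact (mul_eq_zero.1 this).resolve_left (sub_ne_zero.2 ha1)

theorem not_dp_l34 {F : Type*} [Field F] [Fintype F] (hF : Fintype.card F = 4) :
    ¬ DP PSL(3, F) := fun h => by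
  have := Fact.mk Nat.prime_three
  have h2 : (2 : F) = 0 := CITCor.two_eq_zero_of_card (n := 2) (by norm_num) hF
  obtain ⟨ω, hω⟩ := exists_omega hF
  have hω3 : ω ^ 3 = 1 := by linear_combination (ω - 1) * hω
  let Y : SL(3, F) := ⟨!![1, 0, 0; 0, ω, 0; 0, 0, ω ^ 2], by
    rw [det_fin_three]; simp; linear_combination hω3⟩
  let S : SL(3, F) := ⟨!![0, 0, 1; 1, 0, 0; 0, 1, 0], by rw [det_fin_three]; simp⟩
  let W : SL(3, F) := ⟨!![1, 0, 0; 0, 0, 1; 0, 1, 0], by
    rw [det_fin_three]; simp; linear_combination -h2⟩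
  let Z : SL(3, F) := ⟨!![ω, 0, 0; 0, ω, 0; 0, 0, ω], by
    rw [det_fin_three]; simp; linear_combination hω3⟩
  have hZ : Z ∈ center SL(3, F) := Matrix.SpecialLinearGroup.mem_center_iff.2 ⟨ω, by simpa using hω3, by
    ext i j; fin_cases i <;> fin_cases j <;> simp [Z]⟩
  let π : SL(3, F) →* PSL(3, F) := QuotientGroup.mk' _
  have hπ : ∀ A : SL(3, F), π A = 1 ↔ A ∈ center SL(3, F) := fun A => QuotientGroup.eq_one_iff A
  have e1 : Y * Y * Y = 1 := Subtype.ext (by
    change Y.1 * Y.1 * Y.1 = 1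
    simp only [Y, Matrix.mul_fin_three, Matrix.one_fin_three]
    ext i j
    fin_cases i <;> fin_cases j <;> simp
    · linear_combination hω3
    · linear_combination (ω ^ 3 + 1) * hω3)
  have e2 : W * W = 1 := Subtype.ext (by
    change W.1 * W.1 = 1
    simp [W, Matrix.one_fin_three])
  have e3 : W * Y * W * Y = 1 := Subtype.ext (by
    change W.1 * Y.1 * W.1 * Y.1 = 1
    simp only [W, Y, Matrix.mul_fin_three, Matrix.one_fin_three]
    ext i j
    fin_cases i <;> fin_cases j <;> simp <;> linear_combination hω3)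
  have e4 : W * S * W * S = 1 := Subtype.ext (by
    change W.1 * S.1 * W.1 * S.1 = 1
    simp [W, S, Matrix.one_fin_three])
  have e5 : Z * (S * Y) = Y * S := Subtype.ext (by
    change Z.1 * (S.1 * Y.1) = Y.1 * S.1
    simp only [Z, S, Y, Matrix.mul_fin_three]
    ext i j
    fin_cases i <;> fin_cases j <;> simp
    · linear_combination hω3
    · ring)
  have hw : π W * π W = 1 := by rw [← map_mul, e2, map_one]
  have hwi : (π W)⁻¹ = π W := inv_eq_of_mul_eq_one_right hw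
  have hy : π Y ^ 3 = 1 := by rw [pow_three', ← map_mul, ← map_mul, e1, map_one]
  have hy1 : π Y ≠ 1 := fun h0 => by
    obtain ⟨r, -, hr⟩ := Matrix.SpecialLinearGroup.mem_center_iff.1 ((hπ Y).1 h0)
    have a1 := congrFun (congrFun hr 0) 0
    have a2 := congrFun (congrFun hr 1) 1
    simp [Y] at a1 a2
    rw [← a2, a1] at hω
    have : (1 : F) = 0 := by linear_combination hω - h2
    exact one_ne_zero this
  have h1 := h (π Y) (π W) (π S) (orderOf_eq_prime hy hy1) hw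
    (by rw [hwi, eq_inv_iff_mul_eq_one, ← map_mul, ← map_mul, ← map_mul, e3, map_one])
    (by rw [hwi, eq_inv_iff_mul_eq_one, ← map_mul, ← map_mul, ← map_mul, e4, map_one])
    (by rw [← map_mul, ← map_mul, ← e5, map_mul π Z, (hπ Z).2 hZ, one_mul])
  have key : ∀ A : SL(3, F), A.1 0 0 = 1 → π S ^ 2 ≠ π A := fun A hA h0 => by
    rw [← map_pow] at h0
    obtain ⟨z, hz, hz'⟩ := (QuotientGroup.mk'_eq_mk' _).1 h0
    obtain ⟨r, -, hr⟩ := Matrix.SpecialLinearGroup.mem_center_iff.1 hz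
    have a1 := congrFun (congrFun (congrArg Subtype.val hz') 0) 0
    rw [hA, sq] at a1
    change (S.1 * S.1 * z.1) 0 0 = 1 at a1
    rw [← hr] at a1
    simp [S] at a1
  rcases eq_of_mem_zpowers_three hy h1 with h3 | h3 | h3
  · exact key 1 (by simp) (h3.trans (map_one π).symm)
  · exact key Y (by simp [Y]) h3
  · exact key (Y * Y) (by change (Y.1 * Y.1) 0 0 = 1; simp [Y])
      (h3.trans (map_mul π _ _).symm)

theorem eq_of_mem_zpowers_two {X : Type*} [Group X] {y x : X} (hy : y ^ 2 = 1)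
    (h : x ∈ zpowers y) : x = 1 ∨ x = y := by
  obtain ⟨k, rfl⟩ := mem_zpowers_iff.1 h
  have h3 : y ^ (2 : ℤ) = 1 := by exact_mod_cast hy
  rw [← Int.mul_ediv_add_emod k 2, _root_.zpow_add, _root_.zpow_mul, h3, _root_.one_zpow,
    one_mul]
  have : k % 2 = 0 ∨ k % 2 = 1 := by omega
  rcases this with h | h <;> rw [h] <;> simp

theorem not_cp_sz {G : Type*} [Group G] (hs : Cfsg.Lie.IsoSuzuki G) : ¬ CP G := fun h => by
  have := Fact.mk Nat.prime_two
  obtain ⟨F, _, _, m, τ, -, -, ⟨M⟩⟩ := CITCor.exists_szModel hs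
  obtain ⟨l, hl⟩ := M.exists_unit_ne_one
  have hu1 : M.T 0 1 ≠ 1 := by simp
  have hC : centralizer ({M.T 0 1} : Set G) ≤ M.P :=
    M.Pat_inf ▸ M.centralizer_le_Pat (p := M.inf) (by rw [M.Pat_inf]; exact M.T_mem_P 0 1) hu1
  have h1 := h 2 (M.T 0 1) (M.D l) Nat.prime_two (orderOf_eq_prime (M.T_zero_sq 1) hu1)
    (M.isPGroup_P.to_le hC) (fun c hc => by
      obtain ⟨a, b, rfl⟩ := hC (mem_centralizer_singleton_iff.2 hc)
      rw [M.D_conj_T, M.T_mul, M.T_mul]
      congr 1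
      · ring
      · simp; ring)
  rw [M.D_conj_T] at h1
  have hl0 : τ.θ l ≠ 0 := by simp
  rcases eq_of_mem_zpowers_two (M.T_zero_sq 1) h1 with h2 | h2
  · simp at h2
  · have h3 : τ.θ l * (l : F) ^ 2 = 1 := by simpa using h2
    have h4 := congrArg τ.θ h3
    rw [map_mul, map_pow, τ.θθ, map_one] at h4
    have h5 : τ.θ l = 1 := by
      have : τ.θ l * (τ.θ l * (l : F) ^ 2) = 1 := by linear_combination h4
      rwa [h3, mul_one] at this
    apply hl
    ext
    exact τ.θ.injective (by rw [h5]; simp)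

section L2

variable {F : Type*} [Field F] [Finite F]

theorem prime_field_of_cp (h : CP (psl2 F)) (h3 : 3 < Nat.card F) :
    (⊥ : Subfield F) = ⊤ ∧ ringChar F ≠ 2 := by
  obtain ⟨p, hp, hc⟩ := exists_char F
  have hsq : ∀ a : F, a ^ 2 ∈ (⊥ : Subfield F) := fun a => by
    by_cases ha : a = 0
    · rw [ha]; simp
    let u : psl2 F := ⟨aff 1 1, (aff_mem_psl2_iff _ _).2 (by simp)⟩
    let g : psl2 F := ⟨aff (Units.mk0 a ha ^ 2) 0, (aff_mem_psl2_iff _ _).2 ⟨a, by simp [sq]⟩⟩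
    have hu1 : (u : PGL(2, F)) ≠ 1 := by simp [u, aff_eq_one_iff]
    have hup : (u : PGL(2, F)) ∈ unip p (inf F) := (mem_unip_inf p).2 ⟨1, rfl⟩
    have hC : ∀ c : psl2 F, c * u = u * c → ∃ b, (c : PGL(2, F)) = aff 1 b := fun c hc => by
      have hc' : (c : PGL(2, F)) * u = u * c := congrArg Subtype.val hc
      have h1 : (c : PGL(2, F)) • inf F = inf F := eq_of_mem_unip p hup hu1 (by
        rw [← mul_smul, ← hc', mul_smul, ((mem_unip p).1 hup).1])
      obtain ⟨d, b, h2⟩ := exists_aff_of_smul_inf h1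
      have h4 := aff_conj_transl d b (1 : F)
      rw [← h2, show aff (1 : Fˣ) (1 : F) = u from rfl, hc', mul_inv_cancel_right] at h4
      have h5 : (d : F) = 1 := by simpa using (aff_inj.1 h4).2.symm
      obtain rfl : d = 1 := Units.ext h5
      exact ⟨b, h2⟩
    have h1 := h p u g hp.out (orderOf_eq_prime (Subtype.ext ((mem_unip p).1 hup).2)
      (fun h0 => hu1 (congrArg Subtype.val h0))) (by
        rintro ⟨c, hc⟩
        obtain ⟨b, hb⟩ := hC c (mem_centralizer_singleton_iff.1 hc)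
        refine ⟨1, Subtype.ext (Subtype.ext ?_)⟩
        simp only [SubgroupClass.coe_pow, OneMemClass.coe_one, pow_one]
        exact ((mem_unip p).1 ((mem_unip_inf p).2 ⟨b, hb⟩)).2) (fun c hc => by
        obtain ⟨b, hb⟩ := hC c hc
        refine Subtype.ext (commute_of_mem_unip p ((mem_unip_inf p).2 ⟨a ^ 2 * b, ?_⟩) hup)
        simp only [g, coe_mul, InvMemClass.coe_inv, hb, aff_conj_transl]
        simp)
    have hfin : IsOfFinOrder u := isOfFinOrder_of_finite u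
    obtain ⟨n, hn⟩ := (mem_powers_iff_mem_zpowers.2 h1 : _ ∈ Submonoid.powers u)
    have h2 := congrArg Subtype.val hn
    simp only [SubgroupClass.coe_pow, g, u, coe_mul, InvMemClass.coe_inv, aff_conj_transl,
      aff_one_pow] at h2
    have h4 : (n : F) = a ^ 2 := by simpa using (aff_inj.1 h2).2
    rw [← h4]
    exact natCast_mem _ n
  have h2 : ringChar F ≠ 2 := fun h2 => by
    have h4 : (⊥ : Subfield F) = ⊤ := eq_top_iff.2 fun x _ => by
      obtain ⟨a, rfl⟩ := FiniteField.isSquare_of_char_two h2 x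
      rw [← sq]; exact hsq a
    have h5 := card_eq_char_of_bot_eq_top p h4
    rw [ringChar.eq F p] at h2
    omega
  refine ⟨eq_top_iff.2 fun x _ => ?_, h2⟩
  have h4 : (2 : F) ≠ 0 := Ring.two_ne_zero h2
  have h5 : x = ((x + 1) ^ 2 - x ^ 2 - 1) / 2 := by field_simp; ring
  rw [h5]
  exact div_mem (sub_mem (sub_mem (hsq _) (hsq _)) (one_mem _)) (by
    exact_mod_cast natCast_mem (⊥ : Subfield F) 2)

theorem ringAut_eq_one (h : (⊥ : Subfield F) = ⊤) (σ : RingAut F) : σ = 1 := by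
  ext x
  have hx : x ∈ (⊥ : Subfield F) := h ▸ Subfield.mem_top x
  exact (bot_le : (⊥ : Subfield F) ≤ RingHom.eqLocusField (σ : F →+* F) (RingHom.id F)) hx

theorem NM.covBy {Γ : Type*} [Group Γ] {Y H : Subgroup Γ} (h : NM Y) (hle : H ≤ Y) (h0 : H ≠ ⊥)
    (h2 : Two H) : Y ⊓ normalizer (H : Set Γ) ⋖ Y := by
  have h1 := h (H.subgroupOf Y) (fun h3 => h0 (by
    rw [← map_subgroupOf_eq_of_le hle, h3, Subgroup.map_bot])) (by
      obtain ⟨p, q, hp, hq, h3⟩ := h2.exists_isPiNum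
      exact two_of_isPiNum hp hq (h3.card_subgroupOf Y))
  rw [← subgroupOf_normalizer_eq hle, isCoatom_iff_map_covBy _ Y.subtype_injective,
    subgroupOf_map_subtype, range_subtype, inf_comm] at h1
  exact h1

theorem card_torus_dvd {Y : Subgroup PGL(2, F)} (h : DP Y) (hY : psl2 F ≤ Y) {x y : P1 (Kb F)}
    (hT : TorusPair x y) (h3 : 3 ∣ Nat.card (psl2 F ⊓ fixPair x y : Subgroup _)) :
    Nat.card (Y ⊓ fixPair x y : Subgroup _) ∣ 6 := by
  have := Fact.mk Nat.prime_three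
  obtain ⟨τ, hτ, -, hτ'⟩ := exists_generator_of_le_fixPair hT.ne
    (inf_le_right : Y ⊓ fixPair x y ≤ _)
  obtain ⟨⟨c, hc0⟩, hc⟩ := exists_prime_orderOf_dvd_card' 3 h3
  rw [orderOf_mk] at hc
  obtain ⟨hc1, hc2⟩ := mem_inf.1 hc0
  obtain ⟨w, hw, hw1, hw2⟩ := hT.exists_swap
  have hws : w ∈ stabPair x y := mem_stabPair.2 (Or.inr ⟨hw1, hw2⟩)
  have hwf : w ∉ fixPair x y := not_mem_fixPair_of_swap hT.ne hw1
  have h1 := h ⟨c, hY hc1⟩ ⟨w, hY hw⟩ ⟨τ, hτ.1⟩ (by rwa [orderOf_mk])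
    (Subtype.ext (mul_self_of_not_mem_fixPair hT.ne hws hwf))
    (Subtype.ext (conj_eq_inv_of_not_mem_fixPair hT.ne hws hwf hc2))
    (Subtype.ext (conj_eq_inv_of_not_mem_fixPair hT.ne hws hwf hτ.2))
    (Subtype.ext (commute_of_mem_fixPair hT.ne hτ.2 hc2))
  rw [← hτ']
  obtain ⟨k, hk⟩ := mem_zpowers_iff.1 h1
  have hk' : c ^ k = τ ^ 2 := by simpa using congrArg Subtype.val hk
  refine orderOf_dvd_of_pow_eq_one ?_
  rw [show 6 = 2 * 3 from rfl, pow_mul, ← hk', ← zpow_natCast, ← _root_.zpow_mul, mul_comm,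
    _root_.zpow_mul, zpow_natCast, ← hc, pow_orderOf_eq_one, _root_.one_zpow]

theorem normalizer_torus {x y : P1 (Kb F)} (hxy : x ≠ y) {Y : Subgroup PGL(2, F)}
    (h0 : Y ⊓ fixPair x y ≠ ⊥) :
    Y ⊓ normalizer ((Y ⊓ fixPair x y : Subgroup _) : Set PGL(2, F)) = Y ⊓ stabPair x y := by
  ext g
  refine and_congr_right fun hg => ⟨fun h1 => ?_, fun h1 => ?_⟩
  · obtain ⟨⟨t, ht⟩, ht1⟩ := ne_bot_iff_exists_ne_one.1 h0
    exact mem_stabPair_of_conj_mem hxy (fun h2 => ht1 (Subtype.ext h2)) ht.2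
      ((mem_normalizer_iff''.1 h1 t).1 ht).2
  · exact mem_normalizer_fintype fun t ht =>
      ⟨Y.mul_mem (Y.mul_mem hg ht.1) (Y.inv_mem hg), conj_mem_fixPair hxy h1 ht.2⟩

theorem two_of_card {Γ : Type*} [Group Γ] {H : Subgroup Γ} {p k : ℕ} (hp : p.Prime)
    (h : Nat.card H = p ^ k) : Two H :=
  ⟨p, p, hp, hp, fun r hr hd => Or.inl ((Nat.prime_dvd_prime_iff_eq hr hp).1
    (hr.dvd_of_dvd_pow (h ▸ hd)))⟩

theorem ne_bot_of_card {Γ : Type*} [Group Γ] {H : Subgroup Γ} {n : ℕ} (h : Nat.card H = n)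
    (hn : n ≠ 1) : H ≠ ⊥ := fun h0 => hn (by rw [← h, h0, card_bot])

theorem not_nm_psl2 (hF : Nat.card F = 5 ∨ Nat.card F = 7 ∨ Nat.card F = 11) (h2 : ringChar F ≠ 2) :
    ¬ NM (psl2 F) := fun h => by
  obtain ⟨x, y, hT, hc⟩ := exists_torusPair_split (F := F) (by omega)
  have h1 := hT.gcd_mul_card_inf
  rw [gcd_two_card_eq_two h2, hc] at h1
  obtain ⟨r, hr, hr'⟩ : ∃ r : ℕ, r.Prime ∧ Nat.card (psl2 F ⊓ fixPair x y : Subgroup _) = r := by
    rcases hF with h3 | h3 | h3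
    · exact ⟨2, Nat.prime_two, by omega⟩
    · exact ⟨3, Nat.prime_three, by omega⟩
    · exact ⟨5, Nat.prime_five, by omega⟩
  have h0 := ne_bot_of_card hr' hr.one_lt.ne'
  have h3 := h.covBy inf_le_left h0 (two_of_card (k := 1) hr (by rw [pow_one, hr']))
  rw [normalizer_torus hT.ne h0] at h3
  exact hT.not_covBy (Or.inl ⟨hc, by omega⟩) h3

theorem not_nm_pgl5 (hF : Nat.card F = 5) : ¬ NM (⊤ : Subgroup PGL(2, F)) := fun h => by
  obtain ⟨x, y, hT, hc⟩ := exists_torusPair_split (F := F) (by omega)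
  rw [hF] at hc
  have hc' : Nat.card (⊤ ⊓ fixPair x y : Subgroup PGL(2, F)) = 2 ^ 2 := by
    rw [top_inf_eq, hc]; norm_num
  have h0 := ne_bot_of_card hc' (by norm_num)
  have h3 := h.covBy inf_le_left h0 (two_of_card Nat.prime_two hc')
  rw [normalizer_torus hT.ne h0, top_inf_eq] at h3
  obtain ⟨S, hS, e⟩ := exists_S4_ge_stabPair hF hT.ne hc
  have h4 := card_of_equiv_S4 e
  have h5 := hT.card_stabPair
  rcases h3.eq_or_eq hS le_top with h6 | h6
  · rw [h6] at h4; omega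
  · rw [h6, card_top, card_PGL2, hF] at h4; omega

theorem NM.not_d16 {X : Type*} [Group X] [Finite X] (h : NM X) (E : Subgroup X) [hE : E.Normal]
    {τ w : X} (hτ : orderOf τ = 8) (hw : w * w = 1) (h1 : w * τ * w⁻¹ = τ⁻¹) (hwE : w ∉ E)
    (hτE : τ ^ 2 ∈ E) : False := by
  have := Fact.mk Nat.prime_two
  set z := τ ^ 4 with hz
  have hzE : z ∈ E := by rw [hz, show 4 = 2 * 2 from rfl, pow_mul]; exact E.pow_mem hτE 2
  have hz2 : z ^ 2 = 1 := by
    rw [hz, ← pow_mul, show 4 * 2 = 8 from rfl, ← hτ, pow_orderOf_eq_one]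
  have hz1 : z ≠ 1 := fun h0 => by
    have := orderOf_dvd_of_pow_eq_one h0
    rw [hτ] at this; omega
  have hzo : orderOf z = 2 := orderOf_eq_prime hz2 hz1
  have hwz : w * z * w⁻¹ = z := by
    rw [hz, ← conj_pow, h1, inv_pow, ← hz, inv_eq_iff_mul_eq_one, ← sq, hz2]
  have hw2 : w ^ 2 = 1 := by rw [sq, hw]
  have hn : zpowers w ≤ normalizer ((zpowers z : Subgroup X) : Set X) :=
    zpowers_le_of_mem (mem_norm_zpowers (by rw [hwz]; exact mem_zpowers z))
  have hV : ∀ v ∈ zpowers z ⊔ zpowers w, v ∈ E → v ∈ zpowers z := fun v hv hvE => by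
    have h2 : v ∈ ((zpowers z ⊔ zpowers w : Subgroup X) : Set X) := hv
    rw [coe_mul_of_right_le_normalizer_left _ _ hn] at h2
    obtain ⟨a, ha, b, hb, rfl⟩ := h2
    rcases eq_of_mem_zpowers_two hw2 hb with rfl | rfl
    · simpa using ha
    · exact absurd ((E.mul_mem_cancel_left (zpowers_le_of_mem hzE ha)).1 hvE) hwE
  have h3 := h.eq_of_le (A := zpowers z ⊔ zpowers w) (B := zpowers z)
    (fun h0 => zpowers_ne_bot' Nat.prime_two hzo (le_bot_iff.1 (h0 ▸ le_sup_left)))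
    (two_sup Nat.prime_two Nat.prime_two (isPGroup_of_orderOf hzo)
      (isPGroup_zpowers' (k := 1) (by rw [pow_one, hw2])) hn)
    (zpowers_ne_bot' Nat.prime_two hzo) (two_of_isPGroup Nat.prime_two (isPGroup_of_orderOf hzo))
    (fun g hg => mem_norm_zpowers (hV _ ((mem_normalizer_iff.1 hg z).1
      (mem_sup_left (mem_zpowers z))) (hE.conj_mem z hzE g)))
  have h4 : τ ∈ normalizer ((zpowers z ⊔ zpowers w : Subgroup X) : Set X) := by
    rw [h3]
    exact mem_norm_zpowers (by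
      rw [hz, ← conj_pow, mul_inv_cancel_right]; exact mem_zpowers _)
  have h5 := (mem_normalizer_iff.1 h4 w).1 (mem_sup_right (mem_zpowers w))
  have h6 : τ * w * τ⁻¹ * w⁻¹ = τ ^ 2 := by
    rw [mul_assoc, mul_assoc, ← mul_assoc w, ← conj_inv, h1, inv_inv, sq]
  have h7 := hV (τ ^ 2) (h6 ▸ mul_mem h5 (inv_mem (mem_sup_right (mem_zpowers w)))) hτE
  have h8 : τ ^ 4 = 1 := by
    rcases eq_of_mem_zpowers_two hz2 h7 with h9 | h9
    · rw [show 4 = 2 * 2 from rfl, pow_mul, h9, one_pow]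
    · rw [show 4 = 2 * 2 from rfl, pow_mul, h9, hz2]
  exact hz1 h8

theorem not_nm_pgl7 (hF : Nat.card F = 7) (h2 : ringChar F ≠ 2) :
    ¬ NM (⊤ : Subgroup PGL(2, F)) := fun h => by
  obtain ⟨x, y, hT, -, hc⟩ := exists_torusPair_nonsplit (F := F)
  rw [hF] at hc
  obtain ⟨τ, hτ, -, hτ'⟩ := exists_generator_of_le_fixPair hT.ne (le_refl (fixPair x y))
  obtain ⟨w, hw, hw1, hw2⟩ := hT.exists_swap
  obtain ⟨t, ht, ht'⟩ := hT.exists_not_mem_psl2 h2
  have hws : w ∈ stabPair x y := mem_stabPair.2 (Or.inr ⟨hw1, hw2⟩)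
  have hwf : w ∉ fixPair x y := not_mem_fixPair_of_swap hT.ne hw1
  have h3 : w * t ∈ stabPair x y := mul_mem hws (fixPair_le_stabPair x y ht)
  have h4 : w * t ∉ fixPair x y := fun h0 => hwf (((fixPair x y).mul_mem_cancel_right ht).1 h0)
  exact (h.of_equiv topEquiv).not_d16 (psl2 F) (τ := τ) (w := w * t) (by rw [hτ', hc])
    (mul_self_of_not_mem_fixPair hT.ne h3 h4) (conj_eq_inv_of_not_mem_fixPair hT.ne h3 h4 hτ)
    (fun h0 => ht' (((psl2 F).mul_mem_cancel_left hw).1 h0)) (sq_mem_psl2 τ)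

theorem eq_psl2_of_nm {Y : Subgroup PGL(2, F)} (h : NM Y) (hY : psl2 F ≤ Y)
    (hp : (Nat.card F).Prime) (h3 : 3 < Nat.card F) (h2 : ringChar F ≠ 2) :
    Y = psl2 F ∧ Nat.card F = 13 := by
  obtain ⟨x, y, hT, hc, hc3⟩ : ∃ x y : P1 (Kb F), TorusPair x y ∧
      (Nat.card (fixPair x y) = Nat.card F - 1 ∨ Nat.card (fixPair x y) = Nat.card F + 1) ∧
      3 ∣ Nat.card (fixPair x y) := by
    have h4 : ¬ 3 ∣ Nat.card F := fun h0 => by
      have := (Nat.prime_dvd_prime_iff_eq Nat.prime_three hp).1 h0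
      omega
    by_cases h5 : Nat.card F % 3 = 1
    · obtain ⟨x, y, hT, hc⟩ := exists_torusPair_split (F := F) (by omega)
      exact ⟨x, y, hT, Or.inl hc, by omega⟩
    · obtain ⟨x, y, hT, -, hc⟩ := exists_torusPair_nonsplit (F := F)
      exact ⟨x, y, hT, Or.inr hc, by omega⟩
  have h1 := hT.gcd_mul_card_inf
  rw [gcd_two_card_eq_two h2] at h1
  have h4 := card_torus_dvd h.dp hY hT (by omega)
  have h5 := relIndex_mul_index hY
  rw [index_psl2_eq_two h2] at h5
  have h6 : Y.index ∣ 2 := Dvd.intro_left _ h5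
  have h7 := Nat.le_of_dvd (by norm_num) h4
  rcases (Nat.dvd_prime Nat.prime_two).1 h6 with h8 | h8
  · exfalso
    obtain rfl := index_eq_one.1 h8
    rw [top_inf_eq] at h4 h7
    have : Nat.card F = 5 ∨ Nat.card F = 7 := by omega
    rcases this with h9 | h9
    exacts [not_nm_pgl5 h9 h, not_nm_pgl7 h9 h2 h]
  · rw [h8] at h5
    obtain rfl : Y = psl2 F := le_antisymm (relIndex_eq_one.1 (by omega)) hY
    refine ⟨rfl, by_contra fun h9 => not_nm_psl2 (F := F) ?_ h2 h⟩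
    omega

end L2

end Cfsg.Lib.MaxN
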