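import Cfsg.Agent.Recog.NseMain
import Cfsg.Agent.Solv.FrobCount

/-! Groups with the order and the numbers of elements of equal order of a small Ree group: the
element orders. -/

set_option autoImplicit false

namespace Cfsg.Lib.Nse.Ree

/-- The numerical data. -/
structure Par (q a ρ τ M P : ℕ) : Prop where
  hq : q = 3 * a ^ 2
  hρ : 2 * ρ + 1 = q
  hτ : 4 * τ = q + 1
  hM : M + 3 * a = q + 1
  hP : P = q + 3 * a + 1
  odd : Odd a
  three : 3 ≤ a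

theorem low {m d u W W0 : ℕ} (h : (d : ℤ) * m ∣ ((W : ℤ) - W0) * (d * u)) (hd : 0 < d)
    (hc : u.Coprime m) (hlt : W0 < m) : W0 ≤ W ∧ (W < m → W = W0) := by
  rw [mul_left_comm, mul_dvd_mul_iff_left (by exact_mod_cast hd.ne')] at h
  obtain ⟨k, hk⟩ := (Nat.isCoprime_iff_coprime.2 hc.symm).dvd_of_dvd_mul_right h
  have h1 : (W0 : ℤ) < m := by exact_mod_cast hlt
  have h2 : 0 ≤ k := by
    by_contra e
    have : (m : ℤ) * k ≤ m * (-1) := mul_le_mul_of_nonneg_left (by omega) (by positivity)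
    omega
  refine ⟨?_, fun h3 => ?_⟩
  · have : (0 : ℤ) ≤ m * k := by positivity
    omega
  · have h4 : k = 0 := by
      by_contra e
      have : (m : ℤ) * 1 ≤ m * k := mul_le_mul_of_nonneg_left (by omega) (by positivity)
      omega
    rw [h4, mul_zero] at hk
    omega

/-- The units. -/
def un (q a ρ τ M P : ℕ) : Fin 6 → ℕ :=
  ![32 * ρ * τ ^ 2 * M * P, 8 * q ^ 2 * ρ * τ * M * P, 4 * q ^ 3 * τ * M * P,
    2 * (a ^ 2 * q ^ 2) * ρ * M * P, 4 * (a ^ 2 * q ^ 2) * ρ * τ * P,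
    4 * (a ^ 2 * q ^ 2) * ρ * τ * M]

namespace Par

variable {q a ρ τ M P : ℕ} (h : Par q a ρ τ M P)
include h

theorem nine : 9 ≤ a ^ 2 := Nat.pow_le_pow_left h.three 2

theorem le_sq : 3 * a ≤ a ^ 2 := by have := h.three; nlinarith

theorem mod8 : q % 8 = 3 := by
  obtain ⟨k, hk⟩ := h.odd
  obtain ⟨j, hj⟩ := Nat.even_mul_succ_self k
  have : a ^ 2 = 8 * j + 1 := by rw [hk]; nlinarith
  rw [h.hq, this]; omega

theorem oq : Odd q := Nat.odd_iff.2 (by have := h.mod8; omega)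
theorem oρ : Odd ρ := Nat.odd_iff.2 (by have := h.mod8; have := h.hρ; omega)
theorem oτ : Odd τ := Nat.odd_iff.2 (by have := h.mod8; have := h.hτ; omega)
theorem oM : Odd M := Nat.odd_iff.2 (by
  have := h.mod8; have := h.hM; have := Nat.odd_iff.1 h.odd; omega)
theorem oP : Odd P := Nat.odd_iff.2 (by
  have := h.mod8; have := h.hP; have := Nat.odd_iff.1 h.odd; omega)

theorem lq : 1 < q := by have := h.hq; have := h.nine; omega
theorem lρ : 1 < ρ := by have := h.hq; have := h.nine; have := h.hρ; omega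
theorem lτ : 1 < τ := by have := h.hq; have := h.nine; have := h.hτ; omega
theorem lM : 1 < M := by have := h.hq; have := h.nine; have := h.hM; have := h.le_sq; omega
theorem lP : 1 < P := by have := h.hq; have := h.nine; have := h.hP; omega

theorem MP : M * P = 2 * ρ * q + 1 := by
  have h1 := h.hq; have h2 := h.hρ; have h3 := h.hM; have h4 := h.hP
  zify at h1 h2 h3 h4 ⊢
  linear_combination (P : ℤ) * h3 + ((q : ℤ) + 1 - 3 * a) * h4 - q * h2 + 3 * h1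

theorem qρ : q.Coprime ρ := by rw [← h.hρ]; simp
theorem qτ : q.Coprime τ :=
  Nat.Coprime.coprime_dvd_right (dvd_mul_left τ 4) (by rw [h.hτ]; simp)
theorem ρτ : ρ.Coprime τ := Nat.Coprime.coprime_dvd_right (dvd_mul_left τ 2) (by
  rw [show 2 * τ = ρ + 1 by have := h.hρ; have := h.hτ; omega]; simp)
theorem qMP : q.Coprime (M * P) := by rw [h.MP]; simp
theorem ρMP : ρ.Coprime (M * P) := by rw [h.MP, mul_comm 2, mul_assoc]; simp
theorem τMP : τ.Coprime (M * P) := by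
  have h1 : M * P + 3 * q = τ * (16 * τ) := by
    have h1 := h.MP; have h2 := h.hρ; have h3 := h.hτ
    zify at h1 h2 h3 ⊢
    linear_combination h1 + q * h2 - (4 * τ + q + 1) * h3
  refine (Nat.coprime_iff_isRelPrime).2 fun d d1 d2 => isUnit_iff_eq_one.2 ?_
  exact Nat.eq_one_of_dvd_coprimes ((h.qτ.coprime_dvd_left ⟨_, h.hq⟩).mul_left h.qτ)
    ((Nat.dvd_add_right d2).1 (h1 ▸ d1.mul_right _)) d1
theorem qM : q.Coprime M := h.qMP.coprime_dvd_right (dvd_mul_right _ _)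
theorem qP : q.Coprime P := h.qMP.coprime_dvd_right (dvd_mul_left _ _)
theorem ρM : ρ.Coprime M := h.ρMP.coprime_dvd_right (dvd_mul_right _ _)
theorem ρP : ρ.Coprime P := h.ρMP.coprime_dvd_right (dvd_mul_left _ _)
theorem τM : τ.Coprime M := h.τMP.coprime_dvd_right (dvd_mul_right _ _)
theorem τP : τ.Coprime P := h.τMP.coprime_dvd_right (dvd_mul_left _ _)
theorem aq : a ∣ q := ⟨3 * a, by rw [h.hq]; ring⟩
theorem cMP : M.Coprime P := by
  rw [show P = M + 2 * (3 * a) by have := h.hM; have := h.hP; omega, Nat.coprime_self_add_right]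
  exact (Nat.coprime_two_right.2 h.oM).mul_right
    (h.qM.coprime_dvd_left ⟨a, by rw [h.hq]; ring⟩).symm

theorem ident : (1 : ℤ) + q ^ 2 * M * P + (1 * (32 * ρ * τ ^ 2 * M * P) +
    2 * (8 * q ^ 2 * ρ * τ * M * P) + (ρ - 1) * (4 * q ^ 3 * τ * M * P) +
    (2 * τ - 2) * (2 * (a ^ 2 * q ^ 2) * ρ * M * P) + (M - 1) * (4 * (a ^ 2 * q ^ 2) * ρ * τ * P) +
    (P - 1) * (4 * (a ^ 2 * q ^ 2) * ρ * τ * M)) = 24 * (a ^ 2 * q ^ 2) * ρ * τ * M * P := by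
  have h1 : (q : ℚ) = 3 * a ^ 2 := by exact_mod_cast h.hq
  have h2 : (2 * ρ + 1 : ℚ) = q := by exact_mod_cast h.hρ
  have h3 : (4 * τ : ℚ) = q + 1 := by exact_mod_cast h.hτ
  have h4 : (M + 3 * a : ℚ) = q + 1 := by exact_mod_cast h.hM
  have h5 : (P : ℚ) = q + 3 * a + 1 := by exact_mod_cast h.hP
  have e2 : (ρ : ℚ) = (3 * a ^ 2 - 1) / 2 := by linarith
  have e3 : (τ : ℚ) = (3 * a ^ 2 + 1) / 4 := by linarith
  have e4 : (M : ℚ) = 3 * a ^ 2 + 1 - 3 * a := by linarith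
  qify
  rw [h5, h1, e2, e3, e4]
  ring

theorem diff {W : Fin 6 → ℕ} {e : ℕ} (he : e ∣ 24 * (a ^ 2 * q ^ 2) * ρ * τ * M * P)
    (hd : e ∣ 1 + q ^ 2 * M * P + ∑ j, W j * un q a ρ τ M P j) :
    (e : ℤ) ∣ ((W 0 : ℤ) - 1) * (32 * ρ * τ ^ 2 * M * P) +
      ((W 1 : ℤ) - 2) * (8 * q ^ 2 * ρ * τ * M * P) +
      ((W 2 : ℤ) - (ρ - 1)) * (4 * q ^ 3 * τ * M * P) +
      ((W 3 : ℤ) - (2 * τ - 2)) * (2 * (a ^ 2 * q ^ 2) * ρ * M * P) +
      ((W 4 : ℤ) - (M - 1)) * (4 * (a ^ 2 * q ^ 2) * ρ * τ * P) +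
      ((W 5 : ℤ) - (P - 1)) * (4 * (a ^ 2 * q ^ 2) * ρ * τ * M) := by
  have h1 := Int.natCast_dvd_natCast.2 he
  have h2 := Int.natCast_dvd_natCast.2 hd
  simp only [Fin.sum_univ_six, un, Matrix.cons_val] at h2
  push_cast at h1 h2
  rw [← h.ident] at h1
  exact (h2.sub h1).trans (dvd_of_eq (by ring))

variable {W : Fin 6 → ℕ}

theorem low01 (hd : 2 * q ^ 3 ∣ 1 + q ^ 2 * M * P + ∑ j, W j * un q a ρ τ M P j)
    (hle : W 0 * un q a ρ τ M P 0 ≤ 24 * (a ^ 2 * q ^ 2) * ρ * τ * M * P) : 1 ≤ W 0 ∧ 2 ≤ W 1 := by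
  have e3 : q ^ 3 = 3 * (a ^ 2 * q ^ 2) := by rw [pow_succ' q 2]; nth_rewrite 1 [h.hq]; ring
  obtain ⟨k, hk⟩ := h.diff (e := a ^ 2 * q ^ 2) ⟨24 * ρ * τ * M * P, by ring⟩
    (Dvd.dvd.trans ⟨6, by rw [e3]; ring⟩ hd)
  have e4 : (q : ℤ) ^ 3 = 3 * (a ^ 2 * q ^ 2) := by exact_mod_cast e3
  rw [e4] at hk
  push_cast at hk
  have c2 := Nat.coprime_two_left.2 h.oq
  have h0 : W 0 = 1 := (low (m := q ^ 2) (d := 1) (u := 32 * ρ * τ ^ 2 * M * P) (W0 := 1)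
    ⟨a ^ 2 * k - ((W 1 : ℤ) - 2) * (8 * ρ * τ * M * P) -
      ((W 2 : ℤ) - (ρ - 1)) * (12 * a ^ 2 * τ * M * P) -
      ((W 3 : ℤ) - (2 * τ - 2)) * (2 * a ^ 2 * ρ * M * P) -
      ((W 4 : ℤ) - (M - 1)) * (4 * a ^ 2 * ρ * τ * P) -
      ((W 5 : ℤ) - (P - 1)) * (4 * a ^ 2 * ρ * τ * M), by push_cast; linear_combination hk⟩ one_pos
    (Nat.Coprime.pow_right 2 (((((c2.pow_left 5).mul_left h.qρ.symm).mul_left
      (h.qτ.symm.pow_left 2)).mul_left h.qM.symm).mul_left h.qP.symm))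
    (Nat.one_lt_pow two_ne_zero h.lq)).2 (by
      have h1 : W 0 * (4 * τ) * (8 * ρ * τ * M * P) ≤ q ^ 3 * (8 * ρ * τ * M * P) := by
        rw [e3]
        simp only [un, Matrix.cons_val_zero] at hle
        exact (le_of_eq (by ring)).trans (hle.trans (le_of_eq (by ring)))
      have h2 := Nat.le_of_mul_le_mul_right h1 (by
        have := h.lρ; have := h.lτ; have := h.lM; have := h.lP; positivity)
      rw [h.hτ] at h2
      by_contra e
      have h3 : q ^ 2 * (q + 1) ≤ W 0 * (q + 1) := Nat.mul_le_mul_right _ (by omega)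
      have h4 : 0 < q ^ 2 := by have := h.lq; positivity
      nlinarith)
  refine ⟨h0.ge, (low (m := a ^ 2) (d := q ^ 2) (u := 8 * ρ * τ * M * P) (W0 := 2)
    ⟨k - ((W 2 : ℤ) - (ρ - 1)) * (12 * τ * M * P) -
      ((W 3 : ℤ) - (2 * τ - 2)) * (2 * ρ * M * P) -
      ((W 4 : ℤ) - (M - 1)) * (4 * ρ * τ * P) -
      ((W 5 : ℤ) - (P - 1)) * (4 * ρ * τ * M), ?_⟩ (by have := h.lq; positivity)
    (Nat.Coprime.pow_right 2 (Nat.Coprime.coprime_dvd_right h.aq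
      (((((c2.pow_left 3).mul_left h.qρ.symm).mul_left
      h.qτ.symm).mul_left h.qM.symm).mul_left h.qP.symm))) (by have := h.nine; omega)).1⟩
  rw [h0] at hk
  push_cast at hk ⊢
  linear_combination hk

theorem low2 (hd : 2 * ρ ∣ 1 + q ^ 2 * M * P + ∑ j, W j * un q a ρ τ M P j) : ρ - 1 ≤ W 2 := by
  obtain ⟨k, hk⟩ := h.diff (e := ρ) ⟨24 * (a ^ 2 * q ^ 2) * τ * M * P, by ring⟩
    ((dvd_mul_left _ _).trans hd)
  refine (low (m := ρ) (d := 1) (u := 4 * q ^ 3 * τ * M * P)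
    ⟨k - ((W 0 : ℤ) - 1) * (32 * τ ^ 2 * M * P) - ((W 1 : ℤ) - 2) * (8 * q ^ 2 * τ * M * P) -
      ((W 3 : ℤ) - (2 * τ - 2)) * (2 * (a ^ 2 * q ^ 2) * M * P) -
      ((W 4 : ℤ) - (M - 1)) * (4 * (a ^ 2 * q ^ 2) * τ * P) -
      ((W 5 : ℤ) - (P - 1)) * (4 * (a ^ 2 * q ^ 2) * τ * M), ?_⟩ one_pos
    ((((((Nat.coprime_two_left.2 h.oρ).pow_left 2).mul_left (h.qρ.pow_left 3)).mul_left
      h.ρτ.symm).mul_left h.ρM.symm).mul_left h.ρP.symm) (by have := h.lρ; omega)).1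
  push_cast [h.lρ.le]
  linear_combination hk

theorem low3 (hd : 4 * τ ∣ 1 + q ^ 2 * M * P + ∑ j, W j * un q a ρ τ M P j) : 2 * τ - 2 ≤ W 3 := by
  obtain ⟨k, hk⟩ := h.diff (e := 4 * τ) ⟨6 * (a ^ 2 * q ^ 2) * ρ * M * P, by ring⟩ hd
  have c : ∀ x : ℕ, Odd x → x.Coprime τ → x.Coprime (2 * τ) := fun x h1 h2 =>
    (Nat.coprime_two_right.2 h1).mul_right h2
  have c1 := c q h.oq h.qτ
  refine (low (m := 2 * τ) (d := 2) (u := a ^ 2 * q ^ 2 * ρ * M * P)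
    ⟨k - ((W 0 : ℤ) - 1) * (8 * ρ * τ * M * P) - ((W 1 : ℤ) - 2) * (2 * q ^ 2 * ρ * M * P) -
      ((W 2 : ℤ) - (ρ - 1)) * (q ^ 3 * M * P) -
      ((W 4 : ℤ) - (M - 1)) * ((a ^ 2 * q ^ 2) * ρ * P) -
      ((W 5 : ℤ) - (P - 1)) * ((a ^ 2 * q ^ 2) * ρ * M), ?_⟩ two_pos
    ((((((c1.coprime_dvd_left h.aq).pow_left 2).mul_left (c1.pow_left 2)).mul_left
      (c ρ h.oρ h.ρτ)).mul_left (c M h.oM h.τM.symm)).mul_left (c P h.oP h.τP.symm))
    (by have := h.lτ; omega)).1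
  push_cast [show 2 ≤ 2 * τ by have := h.lτ; omega] at hk ⊢
  linear_combination hk

theorem low4 (hd : 2 * M ∣ 1 + q ^ 2 * M * P + ∑ j, W j * un q a ρ τ M P j) : M - 1 ≤ W 4 := by
  obtain ⟨k, hk⟩ := h.diff (e := M) ⟨24 * (a ^ 2 * q ^ 2) * ρ * τ * P, by ring⟩
    ((dvd_mul_left _ _).trans hd)
  refine (low (m := M) (d := 1) (u := 4 * (a ^ 2 * q ^ 2) * ρ * τ * P)
    ⟨k - ((W 0 : ℤ) - 1) * (32 * ρ * τ ^ 2 * P) - ((W 1 : ℤ) - 2) * (8 * q ^ 2 * ρ * τ * P) -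
      ((W 2 : ℤ) - (ρ - 1)) * (4 * q ^ 3 * τ * P) -
      ((W 3 : ℤ) - (2 * τ - 2)) * (2 * (a ^ 2 * q ^ 2) * ρ * P) -
      ((W 5 : ℤ) - (P - 1)) * (4 * (a ^ 2 * q ^ 2) * ρ * τ), ?_⟩ one_pos
    ((((((Nat.coprime_two_left.2 h.oM).pow_left 2).mul_left
      (((h.qM.coprime_dvd_left h.aq).pow_left 2).mul_left (h.qM.pow_left 2))).mul_left
      h.ρM).mul_left h.τM).mul_left h.cMP.symm) (by have := h.lM; omega)).1
  push_cast [h.lM.le]
  linear_combination hk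

theorem low5 (hd : 2 * P ∣ 1 + q ^ 2 * M * P + ∑ j, W j * un q a ρ τ M P j) : P - 1 ≤ W 5 := by
  obtain ⟨k, hk⟩ := h.diff (e := P) ⟨24 * (a ^ 2 * q ^ 2) * ρ * τ * M, by ring⟩
    ((dvd_mul_left _ _).trans hd)
  refine (low (m := P) (d := 1) (u := 4 * (a ^ 2 * q ^ 2) * ρ * τ * M)
    ⟨k - ((W 0 : ℤ) - 1) * (32 * ρ * τ ^ 2 * M) - ((W 1 : ℤ) - 2) * (8 * q ^ 2 * ρ * τ * M) -
      ((W 2 : ℤ) - (ρ - 1)) * (4 * q ^ 3 * τ * M) -
      ((W 3 : ℤ) - (2 * τ - 2)) * (2 * (a ^ 2 * q ^ 2) * ρ * M) -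
      ((W 4 : ℤ) - (M - 1)) * (4 * (a ^ 2 * q ^ 2) * ρ * τ), ?_⟩ one_pos
    ((((((Nat.coprime_two_left.2 h.oP).pow_left 2).mul_left
      (((h.qP.coprime_dvd_left h.aq).pow_left 2).mul_left (h.qP.pow_left 2))).mul_left
      h.ρP).mul_left h.τP).mul_left h.cMP) (by have := h.lP; omega)).1
  push_cast [h.lP.le]
  linear_combination hk

theorem upper (he : 24 * (a ^ 2 * q ^ 2) * ρ * τ * M * P =
      1 + q ^ 2 * M * P + ∑ j, W j * un q a ρ τ M P j)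
    (hW : ∀ j, ![1, 2, ρ - 1, 2 * τ - 2, M - 1, P - 1] j ≤ W j) (j : Fin 6) :
    W j ≤ ![1, 2, ρ - 1, 2 * τ - 2, M - 1, P - 1] j := by
  have h1 : ∑ j, ![1, 2, ρ - 1, 2 * τ - 2, M - 1, P - 1] j * un q a ρ τ M P j =
      ∑ j, W j * un q a ρ τ M P j := by
    refine add_left_cancel (a := 1 + q ^ 2 * M * P) (Eq.trans ?_ he)
    have := h.ident
    simp only [Fin.sum_univ_six, un, Matrix.cons_val]
    zify [h.lρ.le, h.lM.le, h.lP.le, show 2 ≤ 2 * τ by have := h.lτ; omega]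
    linear_combination this
  have h2 := (Finset.sum_eq_sum_iff_of_le fun j _ => Nat.mul_le_mul_right _ (hW j)).1 h1 j
    (Finset.mem_univ _)
  refine (Nat.eq_of_mul_eq_mul_right ?_ h2).ge
  have := h.lρ; have := h.lτ; have := h.lM; have := h.lP; have := h.lq; have := h.three
  fin_cases j <;> simp only [un, Fin.reduceFinMk, Matrix.cons_val] <;> positivity

theorem orders {G : Type*} [Group G] [Finite G]
    (hG : Nat.card G = 24 * (a ^ 2 * q ^ 2) * ρ * τ * M * P) (h2 : cnt G 2 = q ^ 2 * M * P)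
    (hv : ∀ k, 2 < k → ∃ j, un q a ρ τ M P j ∣ cnt G k) (g : G) :
    orderOf g ∣ 2 * q ^ 3 ∨ orderOf g ∣ 2 * ρ ∨ orderOf g ∣ 4 * τ ∨ orderOf g ∣ 2 * M ∨
      orderOf g ∣ 2 * P := by
  classical
  choose! ty w hw using hv
  let V : ℕ → Fin 6 → ℕ := fun e j =>
    ∑ k ∈ (Nat.card G).divisors, if 2 < k ∧ ty k = j ∧ k ∣ e then w k else 0
  have n0 : Nat.card G ≠ 0 := Nat.card_pos.ne'
  have d2 : 2 ∣ Nat.card G := ⟨12 * (a ^ 2 * q ^ 2) * ρ * τ * M * P, by rw [hG]; ring⟩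
  have key : ∀ e, 2 ∣ e → Nat.card {x : G // x ^ e = 1} =
      1 + q ^ 2 * M * P + ∑ j, V e j * un q a ρ τ M P j := fun e he => by
    simp only [← orderOf_dvd_iff_pow_eq_one]
    rw [card_eq_sum (· ∣ e), Finset.sum_filter]
    simp only [V, Finset.sum_mul]
    rw [Finset.sum_comm,
      show 1 + q ^ 2 * M * P = ∑ k ∈ (Nat.card G).divisors,
        ((if k = 1 then 1 else 0) + if k = 2 then q ^ 2 * M * P else 0) by
        rw [Finset.sum_add_distrib, Finset.sum_ite_eq', Finset.sum_ite_eq',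
          if_pos (Nat.mem_divisors.2 ⟨one_dvd _, n0⟩), if_pos (Nat.mem_divisors.2 ⟨d2, n0⟩)],
      ← Finset.sum_add_distrib]
    refine Finset.sum_congr rfl fun k hk => ?_
    have k0 := Nat.pos_of_mem_divisors hk
    by_cases k1 : k = 1
    · simp [k1, cnt_one]
    by_cases k2 : k = 2
    · simp [k2, he, h2]
    have k3 : 2 < k := by omega
    by_cases ke : k ∣ e
    · simp [k1, k2, k3, ke, hw k k3, mul_comm]
    · simp [k1, k2, ke]
  have fr : ∀ e, 2 ∣ e → e ∣ Nat.card G → e ∣ 1 + q ^ 2 * M * P + ∑ j, V e j * un q a ρ τ M P j :=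
    fun e h1 h3 => key e h1 ▸ Solv.Frob.dvd_card_pow_eq_one h3
  have tot := key _ d2
  rw [Nat.card_congr (Equiv.subtypeUnivEquiv fun _ => pow_card_eq_one')] at tot
  have term : ∀ e j, ∀ k ∈ (Nat.card G).divisors, (if 2 < k ∧ ty k = j ∧ k ∣ e then w k else 0) ≤
      if 2 < k ∧ ty k = j ∧ k ∣ Nat.card G then w k else 0 := fun e j k hk => by
    split_ifs with h1 h3
    exacts [le_rfl, absurd ⟨h1.1, h1.2.1, Nat.dvd_of_mem_divisors hk⟩ h3, Nat.zero_le _, le_rfl]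
  have mono : ∀ e j, V e j ≤ V (Nat.card G) j := fun e j => Finset.sum_le_sum (term e j)
  have e3 : q ^ 3 = 3 * (a ^ 2 * q ^ 2) := by rw [pow_succ' q 2]; nth_rewrite 1 [h.hq]; ring
  have l01 := h.low01 (fr _ (dvd_mul_right _ _) ⟨4 * ρ * τ * M * P, by rw [hG, e3]; ring⟩)
    ((Nat.mul_le_mul_right _ (mono _ 0)).trans (by
      rw [← hG]
      nth_rewrite 2 [tot]
      exact (Finset.single_le_sum (f := fun j => V (Nat.card G) j * un q a ρ τ M P j)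
        (fun _ _ => Nat.zero_le _) (Finset.mem_univ 0)).trans (Nat.le_add_left _ _)))
  have lo : ∀ j, ![1, 2, ρ - 1, 2 * τ - 2, M - 1, P - 1] j ≤
      V (![2 * q ^ 3, 2 * q ^ 3, 2 * ρ, 4 * τ, 2 * M, 2 * P] j) j := fun j => by
    fin_cases j
    · exact l01.1
    · exact l01.2
    · exact h.low2 (fr _ (dvd_mul_right _ _) ⟨12 * (a ^ 2 * q ^ 2) * τ * M * P, by rw [hG]; ring⟩)
    · exact h.low3 (fr _ ⟨2 * τ, by ring⟩ ⟨6 * (a ^ 2 * q ^ 2) * ρ * M * P, by rw [hG]; ring⟩)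
    · exact h.low4 (fr _ (dvd_mul_right _ _) ⟨12 * (a ^ 2 * q ^ 2) * ρ * τ * P, by rw [hG]; ring⟩)
    · exact h.low5 (fr _ (dvd_mul_right _ _) ⟨12 * (a ^ 2 * q ^ 2) * ρ * τ * M, by rw [hG]; ring⟩)
  have up := h.upper (W := V (Nat.card G)) (hG ▸ tot) fun j => (lo j).trans (mono _ j)
  by_cases k3 : 2 < orderOf g
  swap
  · refine Or.inl (Dvd.dvd.mul_right ?_ _)
    have := orderOf_pos g
    rcases (by omega : orderOf g = 1 ∨ orderOf g = 2) with e | e <;> simp [e]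
  have hk : orderOf g ∈ (Nat.card G).divisors := Nat.mem_divisors.2 ⟨orderOf_dvd_natCard g, n0⟩
  have h5 := (Finset.sum_eq_sum_iff_of_le (term _ (ty (orderOf g)))).1
    (le_antisymm (mono _ _) ((up _).trans (lo _))) _ hk
  rw [if_pos (c := _ ∧ _ ∧ _ ∣ Nat.card G) ⟨k3, rfl, orderOf_dvd_natCard g⟩] at h5
  have h6 : w (orderOf g) ≠ 0 := fun e => by
    have h7 := hw _ k3
    rw [e, mul_zero] at h7
    exact (Nat.card_pos_iff.2 ⟨⟨⟨g, rfl⟩⟩, inferInstance⟩).ne' h7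
  have h7 : orderOf g ∣ ![2 * q ^ 3, 2 * q ^ 3, 2 * ρ, 4 * τ, 2 * M, 2 * P] (ty (orderOf g)) := by
    by_contra e
    rw [if_neg fun e' => e e'.2.2] at h5
    exact h6 h5.symm
  generalize ty (orderOf g) = j at h7
  fin_cases j <;> simp only [Fin.reduceFinMk, Matrix.cons_val] at h7 <;> tauto

end Par

end Cfsg.Lib.Nse.Ree
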