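import Cfsg.Agent.Recog.O8Kd
import Cfsg.Agent.Recog.O8Td

/-!
Normality of the product of the four quaternion groups.
-/

set_option autoImplicit false

namespace Cfsg.Lib.O8

open Cfsg Subgroup _root_.Cfsg.Lib.Trans Cfsg.Lib.Recog.P43

theorem KB.normal {K : Type*} [Group K] [Finite K] {t : K} {J : Subgroup K} {j : V3 → K}
    {P : Fin 4 → Subgroup K} (h : KB t J j P) (syl : IsSylowIn 3 J ⊤)
    (diag : ∀ n ∈ normalizer (J : Set K), ∃ e, IsSg e ∧ ∀ v, n * j v * n⁻¹ = j (sg e v)) :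
    (⨆ i, P i).Normal ∧ (⨆ i, P i) ⊔ normalizer (J : Set K) = ⊤ :=
  h.normal' syl diag fun a b c => a.normal b c

end Cfsg.Lib.O8
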