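/- Recognition of `PGU₃(q)`, `q` even, by the centraliser of an involution. -/
import Cfsg.Agent.Recog.PGU3B

namespace Cfsg.Lib.Recog.PGU3

open Subgroup Cfsg.Lib.Local Cfsg.Lib.Chev.RankOne Cfsg.Lib.Bender Cfsg.Agent
open Matrix Cfsg.Lib.Class Cfsg.Lib.Class.Form Cfsg.Lib.Known

universe u

variable {F : Type*} [Field F] [Fintype F] {n : ℕ}

/-- The inner automorphisms as elements of the inner-diagonal group. -/
def inc (F : Type*) [Field F] (q : ℕ) : PSU 3 F q →* (innU 3 F q).range :=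
  MulAut.conj.codRestrict _ fun s => inn_le_range_innU ⟨s, rfl⟩

theorem conj_inc {q : ℕ} (β : (innU 3 F q).range) (s : PSU 3 F q) :
    β * inc F q s * β⁻¹ = inc F q ((β : MulAut (PSU 3 F q)) s) :=
  Subtype.ext (MulEquiv.ext fun x => by simp [inc])

theorem simple_psu (hn : 2 ≤ n) (hF : Fintype.card F = (2 ^ n) ^ 2) : IsSimpleGroup (PSU 3 F (2 ^ n)) :=
  isSimpleGroup_PSU hF 3 le_rfl (by have := four_le_two_pow hn; omega)

variable [CharP F 2]

theorem not_all_comm (hF : Fintype.card F = (2 ^ n) ^ 2) {s : PSU 3 F (2 ^ n)} (hs : orderOf s = 2) :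
    ¬ ∀ g, g * s * g⁻¹ * s = s * (g * s * g⁻¹) := by
  intro h
  obtain ⟨H, hH⟩ := exists_se_psu hF
  obtain ⟨t, htH, ht⟩ := hH.exists_involution_mem
  obtain ⟨w, hwH, hw⟩ := hH.exists_involution_not_mem
  obtain ⟨a, rfl⟩ := isConj_iff.1 (hH.isConj_involutions hs ht)
  obtain ⟨b, rfl⟩ := isConj_iff.1 (hH.isConj_involutions hs hw)
  refine hwH (hH.mem_of_commute htH ht ?_)
  calc b * s * b⁻¹ * (a * s * a⁻¹) = a * (a⁻¹ * b * s * (a⁻¹ * b)⁻¹ * s) * a⁻¹ := by group
    _ = _ := by rw [h]; group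

theorem inc_injective (hn : 2 ≤ n) (hF : Fintype.card F = (2 ^ n) ^ 2) : Function.Injective (inc F (2 ^ n)) := by
  have := simple_psu hn hF
  rw [← MonoidHom.ker_eq_bot_iff]
  refine (IsSimpleGroup.eq_bot_or_eq_top_of_normal _ inferInstance).resolve_right fun h => ?_
  obtain ⟨H, hH⟩ := exists_se_psu hF
  obtain ⟨t, -, ht⟩ := hH.exists_involution_mem
  refine not_all_comm hF ht fun g => ?_
  have h1 : g ∈ (inc F (2 ^ n)).ker := h ▸ mem_top g
  have h2 : g * t * g⁻¹ = t := DFunLike.congr_fun (congrArg Subtype.val h1) t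
  rw [h2]

theorem comm_inc_iff (hn : 2 ≤ n) (hF : Fintype.card F = (2 ^ n) ^ 2) {β : (innU 3 F (2 ^ n)).range}
    {s : PSU 3 F (2 ^ n)} : β * inc F _ s = inc F _ s * β ↔ (β : MulAut (PSU 3 F (2 ^ n))) s = s := by
  rw [← mul_inv_eq_iff_eq_mul, conj_inc, (inc_injective hn hF).eq_iff]

theorem exists_inc_eq (hn : 2 ≤ n) (hF : Fintype.card F = (2 ^ n) ^ 2) {y : (innU 3 F (2 ^ n)).range}
    (hy : y * y = 1) : ∃ s, s * s = 1 ∧ inc F _ s = y := by
  have h32 : ¬ (3 = 3 ∧ 2 ^ n = 2) := by have := four_le_two_pow hn; omega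
  have : (inc F (2 ^ n)).range.Normal := ⟨by
    rintro _ ⟨s, rfl⟩ β
    exact ⟨_, (conj_inc β s).symm⟩⟩
  have h1 := (inc F (2 ^ n)).range.index_mul_card
  rw [card_range_innU hF le_rfl h32, ← Nat.card_congr (MonoidHom.ofInjective (inc_injective hn hF)).toEquiv] at h1
  have h2 := Nat.eq_of_mul_eq_mul_right Nat.card_pos h1
  by_cases h3 : y = 1
  · exact ⟨1, mul_one _, by rw [map_one, h3]⟩
  obtain ⟨s, rfl⟩ := mem_of_orderOf_two_of_odd_index (h2 ▸ odd_gcd _) (SE.orderOf_two_of_mul_self hy h3)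
  exact ⟨s, inc_injective hn hF (by rw [map_mul, hy, map_one]), rfl⟩

theorem exists_inc_eq' (hn : 2 ≤ n) (hF : Fintype.card F = (2 ^ n) ^ 2) {y : (innU 3 F (2 ^ n)).range}
    (hy : orderOf y = 2) : ∃ s, orderOf s = 2 ∧ inc F _ s = y := by
  obtain ⟨s, -, rfl⟩ := exists_inc_eq hn hF (SE.mul_self_of_orderOf_two hy)
  exact ⟨s, (orderOf_injective _ (inc_injective hn hF) s).symm.trans hy, rfl⟩

theorem tic_range (hn : 2 ≤ n) (hF : Fintype.card F = (2 ^ n) ^ 2) : TIc (innU 3 F (2 ^ n)).range := by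
  intro x z c hx hz hzx hcx
  obtain ⟨s, hs, rfl⟩ := exists_inc_eq' hn hF hx
  obtain ⟨t, ht, rfl⟩ := exists_inc_eq hn hF hz
  rw [comm_inc_iff hn hF] at hcx ⊢
  exact innU_fix hF hs ht (inc_injective hn hF (by rw [map_mul, hzx, map_mul])) c.2 hcx

theorem cp_range (hn : 2 ≤ n) (hF : Fintype.card F = (2 ^ n) ^ 2) {y : (innU 3 F (2 ^ n)).range}
    (hy : orderOf y = 2) : CP (2 ^ n) (centralizer ({y} : Set (innU 3 F (2 ^ n)).range)) := by
  have h32 : ¬ (3 = 3 ∧ 2 ^ n = 2) := by have := four_le_two_pow hn; omega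
  have hsimple := simple_psu hn hF
  have hinj := inc_injective hn hF
  obtain ⟨s, hs, rfl⟩ := exists_inc_eq' hn hF hy
  obtain ⟨v, hv0, hv, hsv⟩ := exists_isTv_of_orderOf hF hs
  obtain ⟨H₀, hH₀⟩ := exists_se_psu hF
  have hconj : ∀ a b : (innU 3 F (2 ^ n)).range, orderOf a = 2 → orderOf b = 2 → IsConj a b := fun a b ha hb => by
    obtain ⟨a, ha', rfl⟩ := exists_inc_eq' hn hF ha
    obtain ⟨b, hb', rfl⟩ := exists_inc_eq' hn hF hb
    exact (inc F _).map_isConj (hH₀.isConj_involutions ha' hb')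
  have h2 : TwoRank (centralizer ({inc F _ s} : Set (innU 3 F (2 ^ n)).range)) := by
    obtain ⟨c, hc, hc0, hc1⟩ := exists_fixed_ne_of_ne_two hF (fun h => h32 ⟨rfl, h⟩)
    obtain ⟨t, ht⟩ := exists_isTv hv hc
    have hts := ht.comm hv hsv
    have hto := ht.orderOf_eq hv0 hv hc0
    refine ⟨⟨inc F _ s, mem_centralizer_singleton_iff.2 rfl⟩,
      ⟨inc F _ t, mem_centralizer_singleton_iff.2 (by rw [← map_mul, hts, map_mul])⟩, fun h => ?_, fun h => ?_,
      fun h => ?_, Subtype.ext ?_, Subtype.ext ?_, Subtype.ext ?_⟩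
    · exact SE.ne_one_of_orderOf_two hy (congrArg Subtype.val h)
    · exact SE.ne_one_of_orderOf_two hto (hinj ((congrArg Subtype.val h).trans (map_one _).symm))
    · have h3 : s = t := hinj (congrArg Subtype.val h)
      exact hc1 ((h3 ▸ ht).coeff_eq hv0 hsv)
    · exact SE.mul_self_of_orderOf_two hy
    · exact (map_mul _ _ _).symm.trans (by rw [SE.mul_self_of_orderOf_two hto, map_one]; rfl)
    · exact (map_mul _ _ _).symm.trans ((congrArg _ hts.symm).trans (map_mul _ _ _))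
  obtain ⟨H, hH, hCH, hK, -⟩ := ((tic_range hn hF).se_or hconj hy).resolve_left fun h =>
    not_all_comm hF hs fun g => hinj (by simpa only [map_mul, map_inv] using h (inc F _ g))
  have hcore : H.normalCore = ⊥ := by
    rw [eq_bot_iff]
    intro k hk
    have h3 : normalClosure {s} ≤ ((k : MulAut (PSU 3 F (2 ^ n))).toMonoidHom.eqLocus (MonoidHom.id _)) := by
      rw [normalClosure, closure_le]
      intro x hx
      obtain ⟨s', h6, h4⟩ := Group.mem_conjugatesOfSet_iff.1 hx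
      rw [Set.mem_singleton_iff.1 h6] at h4
      obtain ⟨g, rfl⟩ := isConj_iff.1 h4
      have h5 := mem_centralizer_singleton_iff.1
        (hK ((inferInstance : H.normalCore.Normal).conj_mem _ hk (inc F _ g)⁻¹))
      refine (comm_inc_iff hn hF).1 ?_
      rw [map_mul, map_mul, map_inv]
      calc _ = inc F _ g * ((inc F _ g)⁻¹ * k * (inc F _ g)⁻¹⁻¹ * inc F _ s) * (inc F _ g)⁻¹ := by group
        _ = _ := by rw [h5]; group
    have h4 : normalClosure {s} = ⊤ := (IsSimpleGroup.eq_bot_or_eq_top_of_normal _ inferInstance).resolve_left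
      fun h => SE.ne_one_of_orderOf_two hs (mem_bot.1 (h ▸ subset_normalClosure rfl))
    exact Subtype.ext (MulEquiv.ext fun x => h3 (h4 ▸ mem_top x))
  have := faithful_quotient hcore
  obtain ⟨t, Q, hS⟩ := Gate.BenderCore.out H (isStronglyEmbedded_iff_se.2 hH) hcore (twoRank_of_subgroup h2)
  have hQ := isPGroup_Q hS (twoRank_of_subgroup h2)
  have hst : MulAction.stabilizer (innU 3 F (2 ^ n)).range (((1 : (innU 3 F (2 ^ n)).range)) : _ ⧸ H) = H :=
    MulAction.stabilizer_quotient H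
  have hQC : Q ≤ centralizer {inc F _ s} := fun x hx => mem_centralizer_singleton_iff.2
    (II_comm_Q hS hQ ⟨MulAction.mem_stabilizer_iff.1 (hst.symm ▸ hCH (mem_centralizer_singleton_iff.2 rfl)),
      SE.ne_one_of_orderOf_two hy, SE.mul_self_of_orderOf_two hy⟩ hx).symm
  obtain ⟨S, rfl⟩ := exists_sylow_eq_Q hS hQ
  refine ⟨fun z c hz => Subtype.ext (tic_range hn hF _ _ _ hy (congrArg Subtype.val hz)
    (mem_centralizer_singleton_iff.1 z.2) (mem_centralizer_singleton_iff.1 c.2)),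
    ⟨(S : Subgroup _).subgroupOf _, ⟨fun x hx g => hS.conj_mem _ (hst.symm ▸ hCH g.2) _ hx⟩, ?_,
      hQ.comap_subtype, ?_⟩, fun N hN ho => ?_, h2, ?_⟩
  · rw [Nat.card_congr (subgroupOfEquivOfLe hQC).toEquiv, ← pow_mul]
    refine card_sylow_eq odd_one (odd_rest hn) ?_ S
    rw [one_mul, card_range_innU hF le_rfl h32, gcd_mul_card_psu hF, pow_mul]
  · exact (Nat.not_even_iff_odd.1 fun h => S.not_dvd_index h.two_dvd).of_dvd_nat (relIndex_dvd_index_of_le hQC)
  · refine (map_eq_bot_iff_of_injective _ (subtype_injective _)).1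
      (eq_bot_of_odd_of_normalizes hS hQ (hst.symm ▸ (map_subtype_le N).trans hCH) ?_ ?_)
    · rwa [card_map_of_injective (subtype_injective _)]
    · rintro x hx _ ⟨m, hm, rfl⟩
      exact ⟨_, hN.conj_mem m hm ⟨x, hQC hx⟩, rfl⟩
  · have key : ∀ z : {z : centralizer ({inc F _ s} : Set (innU 3 F (2 ^ n)).range) // z * z = 1},
        ∃ d : {x : F // x ^ 2 ^ n = x}, ∃ t, IsTv hF v d t ∧ inc F _ t = z.1.1 := fun z => by
      obtain ⟨t, ht, e⟩ := exists_inc_eq hn hF (y := z.1.1) (congrArg Subtype.val z.2)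
      obtain ⟨d, hd, h⟩ := hsv.exists_of_mul_self hF hv0 hv ht
        (hinj (by rw [map_mul, map_mul, e]; exact mem_centralizer_singleton_iff.1 z.1.2))
      exact ⟨⟨d, hd⟩, t, h, e⟩
    choose f hf using key
    refine (Nat.card_le_card_of_injective f fun a b e => ?_).trans (card_pow_eq_self hF).le
    obtain ⟨t, h1, h3⟩ := hf a
    obtain ⟨t', h1', h3'⟩ := hf b
    refine Subtype.ext (Subtype.ext ?_)
    rw [← h3, ← h3', h1.unique h1' fun _ => by rw [e]]

theorem card_le_sq_of {L : Type u} [Group L] [Finite L] (h : IsBender L) :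
    (∃ (T : Sylow 2 L) (Z : Subgroup L), Gold.BT T Z ∧ Nat.card T ≤ Nat.card Z ^ 2) ∨
      ∃ (F : Type) (_ : Field F) (_ : Fintype F) (n : ℕ), 2 ≤ n ∧ Fintype.card F = (2 ^ n) ^ 2 ∧
        Nonempty (L ≃* PSU 3 F (2 ^ n)) := by
  rcases h with ⟨F, _, _, ⟨n, hn, hF⟩, ⟨e⟩⟩ | ⟨F, _, _, m, hm, hF, ⟨e⟩⟩ | h
  · have : CharP F 2 := charP_of_card_eq_prime_pow hF
    have := (Known.GL2.slLin F).finite
    obtain ⟨T⟩ : Nonempty (Sylow 2 L) := inferInstance
    obtain ⟨e', he⟩ := Gold.exists_equiv_sylow ((Known.GL2.equivPSL CharTwo.two_eq_zero).trans e.symm)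
      ((Known.GL2.slLin F).sylowU 2) T
    refine Or.inl ⟨T, _, (Gold.bt_sl2 (hF ▸ four_le_two_pow hn)).of_equiv e' he, ?_⟩
    refine le_trans (card_le_of_le fun x hx => ?_) (Nat.le_self_pow two_ne_zero _)
    obtain ⟨x, rfl⟩ := e'.surjective x
    exact ⟨x, (he x).1 hx, rfl⟩
  · let M := (Chev.lieSzModel hm hF).ofEquiv e
    refine Or.inl ⟨_, _, Gold.bt_sz M (T := M.sylowAt M.inf) M.Pat_inf, ?_⟩
    have : (M.sylowAt M.inf : Subgroup L) = M.P := M.Pat_inf
    rw [M.card_Z, ← M.card_P, ← this]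
  · exact Or.inr h

variable {G : Type u} [Group G] [Finite G]

theorem exists_normal (hn : 2 ≤ n) (hF : Fintype.card F = (2 ^ n) ^ 2) (heven : Even (Nat.card G))
    (hconj : ∀ s t : G, orderOf s = 2 → orderOf t = 2 → IsConj s t)
    (hC : ∀ x : G, orderOf x = 2 → CP (2 ^ n) (centralizer ({x} : Set G)))
    (hS : ∀ P : Sylow 2 G, ¬ (P : Subgroup G).Normal) :
    ∃ L : Subgroup G, L.Normal ∧ Odd L.index ∧ centralizer (L : Set G) = ⊥ ∧ Nonempty (L ≃* PSU 3 F (2 ^ n)) := by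
  have htic : TIc G := fun x z c hx hz hzx hcx => congrArg Subtype.val
    ((hC x hx).cent ⟨z, mem_centralizer_singleton_iff.2 hzx⟩ ⟨c, mem_centralizer_singleton_iff.2 hcx⟩
      (Subtype.ext hz))
  obtain ⟨P⟩ : Nonempty (Sylow 2 G) := inferInstance
  obtain ⟨x, hxP, hx, hxc⟩ := exists_central_orderOf_eq P.isPGroup' (P.ne_bot_of_dvd_card heven.two_dvd)
  have hPC : (P : Subgroup G) ≤ centralizer {x} := fun y hy => mem_centralizer_singleton_iff.2 (hxc y hy).symm
  obtain ⟨R, hR, hRc, hRp, hRi⟩ := (hC x hx).syl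
  have hle : ∀ A : Subgroup G, IsPGroup 2 A → A ≤ centralizer {x} → A ≤ R.map (Subgroup.subtype _) := fun A hA hAC y hy =>
    ⟨⟨y, hAC hy⟩, le_of_isPGroup_of_odd_index (R := A.subgroupOf _) hA.comap_subtype hRi hy, rfl⟩
  have hRP : R.map (Subgroup.subtype _) = P := P.is_maximal' (hRp.map _) (hle _ P.isPGroup' hPC)
  have hPc : Nat.card P = (2 ^ n) ^ 3 := by
    rw [← hRc, ← card_map_of_injective (subtype_injective _), hRP]
  have hodd : ∀ K : Subgroup G, K.Normal → K ≤ centralizer {x} → Odd (Nat.card K) → K = ⊥ := fun K hK hKC ho => by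
    have := (hC x hx).odd (K.subgroupOf _) inferInstance
      (by rwa [Nat.card_congr (subgroupOfEquivOfLe hKC).toEquiv])
    rwa [subgroupOf_eq_bot, disjoint_iff, inf_eq_left.2 hKC] at this
  obtain ⟨H, hH, -, hK, hKo⟩ := (htic.se_or hconj hx).resolve_left fun h => hS P ⟨fun y hy g => by
    have h1 : ((g • P : Sylow 2 G) : Subgroup G) ≤ centralizer {x} := by
      rintro _ ⟨z, hz, rfl⟩
      refine mem_centralizer_singleton_iff.2 (htic (g * x * g⁻¹) x _ (by rw [orderOf_conj, hx])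
        (SE.mul_self_of_orderOf_two hx) (h g).symm ?_)
      change g * z * g⁻¹ * (g * x * g⁻¹) = g * x * g⁻¹ * (g * z * g⁻¹)
      calc _ = g * (z * x) * g⁻¹ := by group
        _ = _ := by rw [← hxc z hz]; group
    exact hRP ▸ hle _ (g • P).isPGroup' h1 ⟨y, hy, rfl⟩⟩
  have hcore := hodd _ inferInstance hK hKo
  have := faithful_quotient hcore
  have h2 := twoRank_of_subgroup (hC x hx).two
  obtain ⟨t, Q, hS'⟩ := Gate.BenderCore.out H (isStronglyEmbedded_iff_se.2 hH) hcore h2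
  obtain ⟨L, hL, hLi, hB⟩ := exists_bender hS' h2
  have hPL : (P : Subgroup G) ≤ L := le_of_isPGroup_of_odd_index P.isPGroup' hLi
  have hT : ∀ T : Sylow 2 L, Nat.card T = (2 ^ n) ^ 3 := fun T => by
    rw [← hPc, Nat.card_congr (T.equiv (P.subtype hPL)).toEquiv]
    exact Nat.card_congr (subgroupOfEquivOfLe hPL).toEquiv
  have hsimple := hB.isSimpleGroup
  refine ⟨L, hL, hLi, hodd _ inferInstance (centralizer_le (by simpa using hPL hxP)) ?_, ?_⟩
  · rw [odd_card_iff_forall_not_involution]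
    intro y hy ho
    have h3 : (⟨y, mem_of_orderOf_two_of_odd_index hLi ho⟩ : L) ∈ center L :=
      mem_center_iff.2 fun l => Subtype.ext (hy l l.2)
    rcases IsSimpleGroup.eq_bot_or_eq_top_of_normal (center L) inferInstance with h | h
    · rw [h, mem_bot] at h3
      exact SE.ne_one_of_orderOf_two ho (congrArg Subtype.val h3)
    · exact hB.not_commutative ⟨⟨fun a b => mem_center_iff.1 (h ▸ mem_top b) a⟩⟩
  · rcases card_le_sq_of hB with ⟨T, Z, hZ, hc⟩ | ⟨F', _, _, m, hm, hF', ⟨e⟩⟩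
    · exfalso
      obtain ⟨⟨z, hz⟩, hz1⟩ := (ne_bot_iff_exists_ne_one (H := Z)).1 fun h => by
        have := hZ.four
        rw [h, card_bot] at this
        omega
      have hz2 : orderOf (z : G) = 2 := SE.orderOf_two_of_mul_self (congrArg Subtype.val ((hZ.mem_iff z).1 hz).2)
        fun h => hz1 (Subtype.ext (Subtype.ext h))
      have h3 : Nat.card Z ≤ 2 ^ n := le_trans (Nat.card_le_card_of_injective (fun w : Z =>
        (⟨⟨((w : L) : G), mem_centralizer_singleton_iff.2 (congrArg Subtype.val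
          (hZ.central ((hZ.mem_iff z).1 hz).1 w w.2))⟩,
          Subtype.ext (congrArg (fun w : L => (w : G)) ((hZ.mem_iff w).1 w.2).2)⟩ :
          {w : centralizer ({(z : G)} : Set G) // w * w = 1})) fun a b h =>
            Subtype.ext (Subtype.ext (congrArg (fun w => w.1.1) h))) (hC z hz2).inv
      have h4 := (hT T ▸ hc).trans (Nat.pow_le_pow_left h3 2)
      have h5 := four_le_two_pow hn
      exact absurd h4 (not_le.2 (Nat.pow_lt_pow_right (by omega) (by omega)))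
    · obtain ⟨T⟩ : Nonempty (Sylow 2 L) := inferInstance
      have h3 := (card_sylow_psu hm hF' e T).symm.trans (hT T)
      have h4 : 2 ^ m = 2 ^ n := Nat.pow_left_injective (by omega) h3
      rw [h4] at hF' e
      exact ⟨e.trans (psuEquiv 3 _ (FiniteField.ringEquivOfCardEq (hF'.trans hF.symm)))⟩

theorem nonempty_equiv_range (hn : 2 ≤ n) (hF : Fintype.card F = (2 ^ n) ^ 2) (heven : Even (Nat.card G))
    (hconj : ∀ s t : G, orderOf s = 2 → orderOf t = 2 → IsConj s t)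
    (hC : ∀ (x : G) (y : (innU 3 F (2 ^ n)).range), orderOf x = 2 → orderOf y = 2 →
      Nonempty (centralizer ({x} : Set G) ≃* centralizer ({y} : Set (innU 3 F (2 ^ n)).range)))
    (hS : ∀ P : Sylow 2 G, ¬ (P : Subgroup G).Normal) : Nonempty (G ≃* (innU 3 F (2 ^ n)).range) := by
  obtain ⟨H₀, hH₀⟩ := exists_se_psu hF
  obtain ⟨s, -, hs⟩ := hH₀.exists_involution_mem
  have hinj := inc_injective hn hF
  have hy : orderOf (inc F _ s) = 2 := (orderOf_injective _ hinj s).trans hs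
  have hCP : ∀ x : G, orderOf x = 2 → CP (2 ^ n) (centralizer ({x} : Set G)) := fun x hx =>
    (hC x _ hx hy).elim fun e => (cp_range hn hF hy).of_equiv e
  obtain ⟨L, hL, hLi, hLc, ⟨e⟩⟩ := exists_normal hn hF heven hconj hCP hS
  let ψ : G →* MulAut (PSU 3 F (2 ^ n)) := (MulAut.congr e).toMonoidHom.comp (MulAut.conjNormal (H := L))
  have hψ : ∀ (g : G) (l : L), ψ g (e l) = e (MulAut.conjNormal g l) := fun g l => by simp [ψ]
  have hψi : Function.Injective ψ := by
    rw [injective_iff_map_eq_one]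
    intro g hg
    rw [← mem_bot, ← hLc]
    intro l hl
    have h1 := hψ g ⟨l, hl⟩
    rw [hg, MulAut.one_apply] at h1
    have h2 : l = g * l * g⁻¹ := congrArg Subtype.val (e.injective h1)
    exact (eq_mul_inv_iff_mul_eq.1 h2)
  have hψL : ∀ l : L, ψ l = inc F _ (e l) := fun l => MulEquiv.ext fun w => by
    obtain ⟨w, rfl⟩ := e.surjective w
    rw [hψ]
    change _ = e l * e w * (e l)⁻¹
    rw [← map_mul, ← map_inv, ← map_mul]
    rfl
  obtain ⟨x, rfl⟩ := e.surjective s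
  have hx : orderOf (x : G) = 2 := by rw [orderOf_coe, ← hs, MulEquiv.orderOf_eq]
  have hfix : ∀ c : G, c * x = x * c → ψ c (e x) = e x := fun c hc => by
    rw [hψ]
    exact congrArg e (Subtype.ext (mul_inv_eq_iff_eq_mul.2 hc))
  have hcm : ∀ c : G, c * x = x * c → ψ c ∈ (innU 3 F (2 ^ n)).range := fun c hc => by
    refine mem_range_of_fix hn hF hs hLi ?_ fun t ht hts => ?_
    · rw [← map_pow, show c ^ L.index = (⟨_, L.pow_index_mem c⟩ : L) from rfl, hψL]
      exact (inc F _ _).2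
    · obtain ⟨z, rfl⟩ := e.surjective t
      rw [← map_mul, map_eq_one_iff _ e.injective] at ht
      rw [← map_mul, ← map_mul, e.injective.eq_iff] at hts
      have := congrArg Subtype.val ((hCP x hx).cent
        ⟨z, mem_centralizer_singleton_iff.2 (congrArg Subtype.val hts)⟩ ⟨c, mem_centralizer_singleton_iff.2 hc⟩
        (Subtype.ext (congrArg (fun w : L => (w : G)) ht)))
      rw [hψ]
      exact congrArg e (Subtype.ext (mul_inv_eq_iff_eq_mul.2 this))
  have hdec : ∀ β : MulAut (PSU 3 F (2 ^ n)), ∃ l : L, ((ψ l)⁻¹ * β) (e x) = e x := fun β => by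
    obtain ⟨l, hl⟩ := isConj_iff.1 (hH₀.isConj_involutions hs ((β.orderOf_eq _).trans hs))
    obtain ⟨l, rfl⟩ := e.surjective l
    refine ⟨l, ?_⟩
    rw [MulAut.mul_apply, ← hl, MulAut.inv_apply, MulEquiv.symm_apply_eq, hψL]
    rfl
  have hsurj : Function.Surjective (fun c : centralizer ({(x : G)} : Set G) =>
      (⟨⟨ψ c, hcm c (mem_centralizer_singleton_iff.1 c.2)⟩, mem_centralizer_singleton_iff.2
        ((comm_inc_iff hn hF).2 (hfix c (mem_centralizer_singleton_iff.1 c.2)))⟩ :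
        centralizer ({inc F _ (e x)} : Set (innU 3 F (2 ^ n)).range))) := by
    obtain ⟨e'⟩ := hC x _ hx hy
    exact (Function.Injective.bijective_of_nat_card_le (fun a b h => Subtype.ext (hψi (congrArg (fun w => w.1.1) h)))
      (Nat.card_congr e'.toEquiv).ge).2
  have hr : ψ.range = (innU 3 F (2 ^ n)).range := by
    refine le_antisymm ?_ fun β hβ => ?_
    · rintro _ ⟨g, rfl⟩
      obtain ⟨l, hl⟩ := hdec (ψ g)
      rw [← map_inv, ← map_mul, hψ] at hl
      have h1 := hcm ((l : G)⁻¹ * g) (mul_inv_eq_iff_eq_mul.1 (congrArg Subtype.val (e.injective hl)))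
      rw [map_mul, map_inv, hψL] at h1
      exact (mul_mem_cancel_left (inv_mem (inc F _ _).2)).1 h1
    · obtain ⟨l, hl⟩ := hdec β
      have h1 : (ψ l)⁻¹ * β ∈ (innU 3 F (2 ^ n)).range := mul_mem (inv_mem (hψL l ▸ (inc F _ _).2)) hβ
      obtain ⟨c, hc⟩ := hsurj ⟨⟨_, h1⟩, mem_centralizer_singleton_iff.2 ((comm_inc_iff hn hF).2 hl)⟩
      have h2 : ψ c = (ψ l)⁻¹ * β := congrArg (fun w => w.1.1) hc
      exact ⟨l * c, by rw [map_mul, h2, mul_inv_cancel_left]⟩
  exact ⟨(MonoidHom.ofInjective hψi).trans (MulEquiv.subgroupCongr hr)⟩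

end Cfsg.Lib.Recog.PGU3
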